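import Mathlib
import Cfsg.Prelude.Def_Blocks
import Cfsg.Agent.Lib.CT.Wedderburn
import Cfsg.Agent.Lib.CT.Ops
import Cfsg.Agent.Lib.CT.Kernel
import Cfsg.Agent.Lib.Helper74.BLCore
import Cfsg.Agent.Lib.Helper80.DefOneLoc
import Cfsg.Agent.Lib.Helper81.BrT2
import Cfsg.Agent.Lib.Helper93.BrauerB0
import Cfsg.Agent.Lib.Helper81.BrA1
import Cfsg.Agent.Lib.Helper76.BrRBStmt

/-!
# S4504, piece NCE: `|N : C| = ξ(1)`

(adapted from `Cfsg.Agent.Lib.Helper74.BrauerMain.core`)
-/

set_option autoImplicit false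
set_option linter.style.haveILetI false

namespace Cfsg.Agent.Lib.Helper13.BrRBNCE

open Cfsg Cfsg.Agent.Lib.CT Cfsg.Agent.Lib.CT.Wedderburn Cfsg.Agent.Lib.CT.Ops
open Cfsg.Agent.Lib.Helper76.BrRB
open scoped ComplexConjugate

universe u

theorem main : NCE.{u} := by
  intro G _ _ p _ c hT
  classical
  obtain ⟨hfle, hnorm, ψ₀, hψ₀, hsupp⟩ := hT
  by_contra hne0
  have hp : p.Prime := Fact.out
  have hP : Nat.card c.P = p := c.hP
  have hgen := c.hgen
  let ξ : IrrCharacter G := ⟨c.ξ, c.hξ⟩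
  have hξc : IsCharacter G (ξ : G → ℂ) := isCharacter_of_irr ξ.2
  have hdegc : (charDegree (ξ : G → ℂ) : ℂ) = (ξ : G → ℂ) 1 := char_natCast_charDegree hξc
  have hdpos : 0 < charDegree (ξ : G → ℂ) := irr_charDegree_pos ξ.2
  have hdeg0 : 2 * charDegree (ξ : G → ℂ) + 1 = p := c.hdeg
  have hfle' : (Subgroup.centralizer ((c.P : Subgroup G) : Set G)).relIndex
      (Subgroup.normalizer ((c.P : Subgroup G) : Set G)) ≤ charDegree (ξ : G → ℂ) := hfle
  have hne0' : (Subgroup.centralizer ((c.P : Subgroup G) : Set G)).relIndex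
      (Subgroup.normalizer ((c.P : Subgroup G) : Set G)) ≠ charDegree (ξ : G → ℂ) := hne0
  have hfp : 2 * (Subgroup.centralizer ((c.P : Subgroup G) : Set G)).relIndex
      (Subgroup.normalizer ((c.P : Subgroup G) : Set G)) + 1 < p := by omega
  have hf0 : (Subgroup.centralizer ((c.P : Subgroup G) : Set G)).relIndex
      (Subgroup.normalizer ((c.P : Subgroup G) : Set G)) ≠ 0 := Subgroup.index_ne_zero_of_finite
  have hodd : p ≠ 2 := by have := c.hp5; omega
  have hkey : ∀ x : G, x ∈ (c.P : Subgroup G) → ‖(ξ : G → ℂ) x‖ = ((ξ : G → ℂ) 1).re := by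
    intro x hx
    obtain ⟨χb, hreg, hab⟩ :=
      Cfsg.Agent.Lib.Helper81.BrT2.exists_pconj p c.P hP ξ hfp ψ₀ hψ₀ hsupp
    have hne : ξ ≠ χb := by
      intro h
      have h1 := hab 1 (one_mem _)
      rw [← h] at h1
      have hfin : ((c.P : Subgroup G) : Set G).Finite := Set.toFinite _
      rw [finsum_mem_eq_finite_toFinset_sum _ hfin] at h1
      have hterm : ∀ u ∈ hfin.toFinset, (0 : ℝ) ≤
          (((ξ : G → ℂ) (u * 1) * conj ((ξ : G → ℂ) (u * 1))).re) := by
        intro u _
        rw [Complex.mul_conj]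
        simp only [Complex.ofReal_re]
        exact Complex.normSq_nonneg _
      have h2 := congrArg Complex.re h1
      rw [Complex.re_sum, Complex.zero_re] at h2
      have h3 := (Finset.sum_eq_zero_iff_of_nonneg hterm).mp h2 1 (by simp)
      rw [mul_one, Complex.mul_conj] at h3
      simp only [Complex.ofReal_re] at h3
      have h4 : (ξ : G → ℂ) 1 = 0 := Complex.normSq_eq_zero.mp h3
      rw [← hdegc] at h4
      have : charDegree (ξ : G → ℂ) = 0 := by exact_mod_cast h4
      omega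
    obtain ⟨X, Y, ε, ε', hX, hXY, hε, hε', hXsing, hYsing, hreg', hYavg⟩ :=
      Cfsg.Agent.Lib.Helper93.BrauerB0.b0_structure p hodd c.P hP
    have hf1 := Cfsg.Agent.Lib.Helper81.BrA1.core_count p c.P hP hgen ξ χb hne hreg hab _ hnorm
      hfp X Y ε ε' hX hXY hε hε' hXsing hYsing hreg' hYavg
    letI : Fintype ↥(Subgroup.centralizer ((c.P : Subgroup G) : Set G)) := Fintype.ofFinite _
    have hres : IsCharacter ↥(Subgroup.centralizer ((c.P : Subgroup G) : Set G))
        (fun k : ↥(Subgroup.centralizer ((c.P : Subgroup G) : Set G)) => (ξ : G → ℂ) (k : G)) :=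
      isCharacter_restrict _ hξc
    have hn1 : classInner
        (fun k : ↥(Subgroup.centralizer ((c.P : Subgroup G) : Set G)) => (ξ : G → ℂ) (k : G))
        (fun k : ↥(Subgroup.centralizer ((c.P : Subgroup G) : Set G)) => (ξ : G → ℂ) (k : G))
        = 1 := by
      unfold classInner
      have e : ∑ᶠ k ∈ ((Subgroup.centralizer ((c.P : Subgroup G) : Set G) : Subgroup G) : Set G),
          (ξ : G → ℂ) k * conj ((ξ : G → ℂ) k) =
          ∑ k : ↥(Subgroup.centralizer ((c.P : Subgroup G) : Set G)),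
            (ξ : G → ℂ) (k : G) * conj ((ξ : G → ℂ) (k : G)) := by
        rw [← finsum_set_coe_eq_finsum_mem, finsum_eq_sum_of_fintype]
        rfl
      have hCne : (Nat.card ↥(Subgroup.centralizer ((c.P : Subgroup G) : Set G)) : ℂ) ≠ 0 :=
        Nat.cast_ne_zero.mpr Nat.card_pos.ne'
      rw [← e, hnorm, hf1, Nat.cast_one, one_mul, inv_mul_cancel₀ hCne]
    have hirr : IsIrrCharacter ↥(Subgroup.centralizer ((c.P : Subgroup G) : Set G))
        (fun k : ↥(Subgroup.centralizer ((c.P : Subgroup G) : Set G)) => (ξ : G → ℂ) (k : G)) := by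
      refine Cfsg.Agent.Lib.Helper74.BLCore.irr_of_norm_one ?_ hn1 (charDegree (ξ : G → ℂ))
        hdpos ?_
      · refine ⟨_, _, isCharacter_add hres hres, hres, ?_⟩
        funext k
        simp
      · show (ξ : G → ℂ) ((1 : ↥(Subgroup.centralizer ((c.P : Subgroup G) : Set G))) : G) = _
        rw [Subgroup.coe_one, hdegc]
    have hxC : x ∈ Subgroup.centralizer ((c.P : Subgroup G) : Set G) :=
      Cfsg.Agent.Lib.Helper80.DefOneLoc.le_centralizer c.P hP hx
    have hz : (⟨x, hxC⟩ : ↥(Subgroup.centralizer ((c.P : Subgroup G) : Set G))) ∈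
        Subgroup.center ↥(Subgroup.centralizer ((c.P : Subgroup G) : Set G)) := by
      rw [Subgroup.mem_center_iff]
      intro k
      apply Subtype.ext
      exact (Subgroup.mem_centralizer_iff.mp k.2 x hx).symm
    have hfin := Kernel.norm_eq_of_mem_center hirr hz
    exact hfin
  -- `P` is central, hence normal
  apply c.hnn
  constructor
  intro n hn g
  have hcen : n ∈ Subgroup.center G := Kernel.mem_center_of_norm_eq hξc c.hfaith (hkey n hn)
  have h1 := (Subgroup.mem_center_iff.mp hcen) g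
  have h2 : g * n * g⁻¹ = n := by rw [h1]; group
  rw [h2]; exact hn

end Cfsg.Agent.Lib.Helper13.BrRBNCE
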