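import Mathlib
import Cfsg.Prelude.Def_Blocks
import Cfsg.Agent.Lib.CT.Wedderburn
import Cfsg.Agent.Lib.CT.Ops
import Cfsg.Agent.Lib.CT.LinChar
import Cfsg.Agent.Lib.Helper80.DefOneLoc
import Cfsg.Agent.Lib.Helper67.BrL24
import Cfsg.Agent.Lib.Helper21.BrL3
import Cfsg.Agent.Lib.Helper76.BrRBStmt

/-!
# S4504, piece ORB: `|N : C| = ξ(1)` and `ξ|_C` is a sum of `ξ(1)` linear characters, each of
them an `N`-conjugate of `ψ₀` on `P`

(adapted from `Cfsg.Agent.Lib.Helper74.BrauerT1.small_degree_type`)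
-/

set_option autoImplicit false
set_option linter.style.haveILetI false

namespace Cfsg.Agent.Lib.Helper13.BrRBORB

open Cfsg Cfsg.Agent.Lib.CT Cfsg.Agent.Lib.CT.Wedderburn Cfsg.Agent.Lib.CT.Ops
open Cfsg.Agent.Lib.Helper76.BrRB
open scoped ComplexConjugate

universe u

theorem main (hT1B : T1B.{u}) (hT1T : T1T.{u}) (hNCE : NCE.{u}) : ORB.{u} := by
  intro L _ _ p _ c
  classical
  have hp : p.Prime := Fact.out
  let ξ : IrrCharacter L := ⟨c.ξ, c.hξ⟩
  have hξc : IsCharacter L (ξ : L → ℂ) := isCharacter_of_irr ξ.2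
  have hdeg : 2 * charDegree (ξ : L → ℂ) + 1 ≤ p := le_of_eq c.hdeg
  have hnk : ¬ ∀ x : L, x ∈ (c.P : Subgroup L) → (ξ : L → ℂ) x = (ξ : L → ℂ) 1 := by
    intro h
    have h1 : ∀ x ∈ (c.P : Subgroup L), x = 1 := fun x hx => c.hfaith x (h x hx)
    have hbot : (c.P : Subgroup L) = ⊥ := (Subgroup.eq_bot_iff_forall _).mpr h1
    have h2 := c.hP
    rw [hbot, Subgroup.card_bot] at h2
    have h3 := hp.one_lt
    omega
  have hNC : (Subgroup.centralizer ((c.P : Subgroup L) : Set L)).relIndex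
      (Subgroup.normalizer ((c.P : Subgroup L) : Set L)) = charDegree c.ξ := by
    apply hNCE p c
    rcases hT1T p c.P c.hP ξ hdeg with h | h
    · exact absurd h hnk
    · exact h
  refine ⟨hNC, ?_⟩
  letI : Fintype ↥(Subgroup.centralizer ((c.P : Subgroup L) : Set L)) := Fintype.ofFinite _
  rcases hT1B p c.P c.hP ξ hdeg with h1 | ⟨φ₀, ψ₀, hψ₀, hφ₀, hm, hdegle⟩
  · exact absurd h1 hnk
  obtain ⟨S, hScard, hS⟩ := Cfsg.Agent.Lib.Helper21.BrL3.exists_orbit p c.P c.hP (ξ : L → ℂ) hξc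
    φ₀ ψ₀ hψ₀ hφ₀ hm
  have hres : IsCharacter ↥(Subgroup.centralizer ((c.P : Subgroup L) : Set L))
      (fun k : ↥(Subgroup.centralizer ((c.P : Subgroup L) : Set L)) => (ξ : L → ℂ) (k : L)) :=
    isCharacter_restrict _ hξc
  have hsumdeg : ∑ φ ∈ S,
      charDegree (φ : ↥(Subgroup.centralizer ((c.P : Subgroup L) : Set L)) → ℂ) =
      (Subgroup.centralizer ((c.P : Subgroup L) : Set L)).relIndex
        (Subgroup.normalizer ((c.P : Subgroup L) : Set L)) *
        charDegree (φ₀ : ↥(Subgroup.centralizer ((c.P : Subgroup L) : Set L)) → ℂ) := by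
    rw [Finset.sum_congr rfl (fun φ hφ => (hS φ hφ).2.1), Finset.sum_const, smul_eq_mul, hScard]
  have hdeg' : charDegree
      (fun k : ↥(Subgroup.centralizer ((c.P : Subgroup L) : Set L)) => (ξ : L → ℂ) (k : L)) ≤
      ∑ φ ∈ S, charDegree (φ : ↥(Subgroup.centralizer ((c.P : Subgroup L) : Set L)) → ℂ) := by
    rw [hsumdeg]
    exact hdegle
  obtain ⟨hsum, hnormC⟩ := Cfsg.Agent.Lib.Helper67.BrL24.eq_sum_of_degree_le _ hres S
    (fun φ hφ => (hS φ hφ).1) hdeg'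
  have hdpos : 0 < charDegree (ξ : L → ℂ) := irr_charDegree_pos ξ.2
  have h3 : charDegree (ξ : L → ℂ) = ∑ φ ∈ S,
      charDegree (φ : ↥(Subgroup.centralizer ((c.P : Subgroup L) : Set L)) → ℂ) := by
    have h1 := hsum 1
    have h2 : ((charDegree (ξ : L → ℂ) : ℕ) : ℂ) = ((∑ φ ∈ S,
        charDegree (φ : ↥(Subgroup.centralizer ((c.P : Subgroup L) : Set L)) → ℂ) : ℕ) : ℂ) := by
      rw [char_natCast_charDegree hξc, Nat.cast_sum]
      rw [show (ξ : L → ℂ) 1 = (ξ : L → ℂ)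
        ((1 : ↥(Subgroup.centralizer ((c.P : Subgroup L) : Set L))) : L) from rfl, h1]
      exact Finset.sum_congr rfl fun φ _ =>
        (char_natCast_charDegree (isCharacter_of_irr φ.2)).symm
    exact_mod_cast h2
  have hφ₀deg : charDegree
      (φ₀ : ↥(Subgroup.centralizer ((c.P : Subgroup L) : Set L)) → ℂ) = 1 := by
    rw [hsumdeg, hNC] at h3
    have h4 : charDegree c.ξ * 1 = charDegree c.ξ *
        charDegree (φ₀ : ↥(Subgroup.centralizer ((c.P : Subgroup L) : Set L)) → ℂ) := by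
      rw [mul_one]; exact h3
    exact (Nat.eq_of_mul_eq_mul_left hdpos h4).symm
  have hφ₀one : (φ₀ : ↥(Subgroup.centralizer ((c.P : Subgroup L) : Set L)) → ℂ) 1 = 1 := by
    rw [← char_natCast_charDegree (isCharacter_of_irr φ₀.2), hφ₀deg, Nat.cast_one]
  have hex : ∀ φ : IrrCharacter ↥(Subgroup.centralizer ((c.P : Subgroup L) : Set L)), φ ∈ S →
      ∃ f : ↥(Subgroup.centralizer ((c.P : Subgroup L) : Set L)) →* ℂˣ,
        ∀ k, (φ : ↥(Subgroup.centralizer ((c.P : Subgroup L) : Set L)) → ℂ) k =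
          ((f k : ℂˣ) : ℂ) := by
    intro φ hφ
    apply LinChar.exists_hom_of_isCharacter _ (isCharacter_of_irr φ.2)
    rw [← char_natCast_charDegree (isCharacter_of_irr φ.2), (hS φ hφ).2.1, hφ₀deg, Nat.cast_one]
  let F : IrrCharacter ↥(Subgroup.centralizer ((c.P : Subgroup L) : Set L)) →
      (↥(Subgroup.centralizer ((c.P : Subgroup L) : Set L)) →* ℂˣ) := fun φ =>
    if h : φ ∈ S then Classical.choose (hex φ h) else 1
  have hF : ∀ φ ∈ S, ∀ k, (φ : ↥(Subgroup.centralizer ((c.P : Subgroup L) : Set L)) → ℂ) k =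
      ((F φ k : ℂˣ) : ℂ) := by
    intro φ hφ k
    show _ = (((if h : φ ∈ S then Classical.choose (hex φ h) else 1) k : ℂˣ) : ℂ)
    rw [dif_pos hφ]
    exact Classical.choose_spec (hex φ hφ) k
  have hFinj : Set.InjOn F S := by
    intro φ hφ φ' hφ' h
    apply Subtype.ext
    funext k
    rw [hF φ hφ k, hF φ' hφ' k, h]
  refine ⟨S.image F, ψ₀, hψ₀, ?_, ?_, ?_⟩
  · rw [Finset.card_image_of_injOn hFinj, hScard, hNC]
  · intro k
    rw [Finset.sum_image hFinj]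
    have hk : c.ξ (k : L) = ∑ φ ∈ S,
        (φ : ↥(Subgroup.centralizer ((c.P : Subgroup L) : Set L)) → ℂ) k := hsum k
    rw [hk]
    exact Finset.sum_congr rfl (fun φ hφ => hF φ hφ k)
  · intro μ hμ
    obtain ⟨φ, hφ, rfl⟩ := Finset.mem_image.mp hμ
    obtain ⟨n, hn, hnφ⟩ := (hS φ hφ).2.2
    refine ⟨n, hn, fun u u' k hk hu' => ?_⟩
    apply Units.ext
    rw [← hF φ hφ k, hnφ u u' k hk hu', hφ₀one, one_mul]

end Cfsg.Agent.Lib.Helper13.BrRBORB
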