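import Mathlib
import Cfsg.Agent.H85.Basic
import Cfsg.Agent.H85.Aut
import Cfsg.Agent.Lib.Helper88.CEStmt

/-!
# S5127, piece JCEN: `x⁻¹ κ₁(x)` commutes with every element of `P₁`
-/

set_option autoImplicit false

namespace Cfsg.Agent.Lib.Helper13.CEJCEN

open Cfsg Cfsg.FusionSystem Cfsg.Agent.Lib.Helper88.CEStmt

universe u

theorem main : JCen.{u} := by
  intro Ω _ S _ F T hT P P₁ hPP₁ hP₁T hCP X hX κ₁ hκ₁ x hx t ht
  classical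
  have hTS : T ≤ S := hT.1
  have hXS : X ≤ S := fun y hy => (Subgroup.mem_inf.mp (hX hy)).1
  have hXc : ∀ y ∈ X, ∀ u ∈ T, u * y = y * u := by
    intro y hy u hu
    exact Subgroup.mem_centralizer_iff.mp (Subgroup.mem_inf.mp (hX hy)).2 u hu
  have hle : P₁ ⊔ X ≤ S := sup_le (hP₁T.trans hTS) hXS
  have hprod : ∀ g ∈ P₁ ⊔ X, ∃ u ∈ P₁, ∃ y ∈ X, g = u * y := by
    intro g hg
    rw [Subgroup.sup_eq_closure] at hg
    induction hg using Subgroup.closure_induction with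
    | mem g hg =>
      rcases hg with hg | hg
      · exact ⟨g, hg, 1, X.one_mem, by simp⟩
      · exact ⟨1, P₁.one_mem, g, hg, by simp⟩
    | one => exact ⟨1, P₁.one_mem, 1, X.one_mem, by simp⟩
    | mul a b _ _ ha hb =>
      obtain ⟨u, hu, y, hy, rfl⟩ := ha
      obtain ⟨v, hv, y', hy', rfl⟩ := hb
      refine ⟨u * v, P₁.mul_mem hu hv, y * y', X.mul_mem hy hy', ?_⟩
      have h1 := hXc y hy v (hP₁T hv)
      calc u * y * (v * y') = u * (y * v) * y' := by group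
        _ = u * (v * y) * y' := by rw [h1]
        _ = u * v * (y * y') := by group
    | inv a _ ha =>
      obtain ⟨u, hu, y, hy, rfl⟩ := ha
      refine ⟨u⁻¹, P₁.inv_mem hu, y⁻¹, X.inv_mem hy, ?_⟩
      have h1 := hXc y hy u (hP₁T hu)
      rw [h1]; group
  have hmaps : ∀ κ ∈ F.autGroup (P₁ ⊔ X), ∀ u : ↥(P₁ ⊔ X), (u : Ω) ∈ P₁ →
      ((κ u : ↥(P₁ ⊔ X)) : Ω) ∈ P₁ := by
    intro κ hκ u hu
    have hκ' := (Cfsg.Agent.H85.mem_autGroup_iff F hle κ).mp hκ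
    have hres := Cfsg.Agent.H85.restrict_mem F hκ' (le_sup_left : P₁ ≤ P₁ ⊔ X)
    have hT' := hT.2 P₁ hP₁T _ hres ⟨u, hu⟩
    have hκuT : ((κ u : ↥(P₁ ⊔ X)) : Ω) ∈ T := hT'
    obtain ⟨v, hv, y, hy, hvy⟩ := hprod _ (κ u).2
    have hyT : y ∈ T := by
      have h0 : y = v⁻¹ * ((κ u : ↥(P₁ ⊔ X)) : Ω) := by rw [hvy]; group
      rw [h0]
      exact T.mul_mem (T.inv_mem (hP₁T hv)) hκuT
    have hyP : y ∈ P := by
      apply hCP
      refine Subgroup.mem_inf.mpr ⟨hyT, Subgroup.mem_centralizer_iff.mpr ?_⟩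
      intro w hw
      exact hXc y hy w (hP₁T (hPP₁ hw))
    rw [hvy]
    exact P₁.mul_mem hv (hPP₁ hyP)
  have hxc : t * (x : Ω) = (x : Ω) * t := hXc _ hx t (hP₁T ht)
  have ht' := hmaps κ₁⁻¹ (Subgroup.inv_mem _ hκ₁) ⟨t, Subgroup.mem_sup_left ht⟩ ht
  have hκt' : κ₁ (κ₁⁻¹ ⟨t, Subgroup.mem_sup_left ht⟩) = ⟨t, Subgroup.mem_sup_left ht⟩ :=
    MulEquiv.apply_symm_apply κ₁ _
  have hcomm' : (κ₁⁻¹ ⟨t, Subgroup.mem_sup_left ht⟩ : ↥(P₁ ⊔ X)) * x =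
      x * (κ₁⁻¹ ⟨t, Subgroup.mem_sup_left ht⟩ : ↥(P₁ ⊔ X)) := by
    apply Subtype.ext
    exact hXc _ hx _ (hP₁T ht')
  have h2 := congrArg κ₁ hcomm'
  rw [map_mul, map_mul, hκt'] at h2
  have h3 : t * ((κ₁ x : ↥(P₁ ⊔ X)) : Ω) = ((κ₁ x : ↥(P₁ ⊔ X)) : Ω) * t :=
    congrArg Subtype.val h2
  have hxi : t * (x : Ω)⁻¹ = (x : Ω)⁻¹ * t :=
    Commute.inv_right (show Commute t (x : Ω) from hxc)
  rw [← mul_assoc, hxi, mul_assoc, h3, ← mul_assoc]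

end Cfsg.Agent.Lib.Helper13.CEJCEN
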