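import Mathlib
import Cfsg.Agent.Lib.Helper88.CEStmt
import Cfsg.Agent.Lib.Helper99.FCGEN

/-!
# S5127, piece JFIX: a normal subgroup containing a Sylow `p`-subgroup `Q` and the `p'`-elements
of `N_G(Q)` is the whole group
-/

set_option autoImplicit false

namespace Cfsg.Agent.Lib.Helper13.CEJFIX

open Cfsg.Agent.Lib.Helper88.CEStmt

universe u

theorem main : JFix.{u} := by
  intro G _ _ p _ Q N hN hQN hp'
  have h1 : Subgroup.normalizer ((Q : Subgroup G) : Set G) ⊔ N = ⊤ :=
    Sylow.normalizer_sup_eq_top' Q hQN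
  have h2 : Subgroup.normalizer ((Q : Subgroup G) : Set G) ≤ N := by
    intro g hg
    have hQH : (Q : Subgroup G) ≤ Subgroup.normalizer ((Q : Subgroup G) : Set G) :=
      Subgroup.le_normalizer
    have hgen := Cfsg.Agent.Lib.Helper99.FCGEN.main p (Q.subtype hQH) ⟨g, hg⟩
    have hle : Subgroup.closure
        ((((Q.subtype hQH : Sylow p ↥(Subgroup.normalizer ((Q : Subgroup G) : Set G))) :
          Subgroup ↥(Subgroup.normalizer ((Q : Subgroup G) : Set G))) :
          Set ↥(Subgroup.normalizer ((Q : Subgroup G) : Set G))) ∪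
          {h : ↥(Subgroup.normalizer ((Q : Subgroup G) : Set G)) | (orderOf h).Coprime p}) ≤
        N.subgroupOf (Subgroup.normalizer ((Q : Subgroup G) : Set G)) := by
      rw [Subgroup.closure_le]
      rintro h (hh | hh)
      · show (h : G) ∈ N
        apply hQN
        exact hh
      · show (h : G) ∈ N
        apply hp' _ h.2
        rw [Subgroup.orderOf_coe]; exact hh
    exact hle hgen
  rw [sup_of_le_right h2] at h1
  exact h1

end Cfsg.Agent.Lib.Helper13.CEJFIX
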