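import Mathlib
import Cfsg.Agent.Lib.Helper88.CEStmt

/-!
# S5127, piece JPP: a `p'`-automorphism fixing `z (α z)⁻¹` fixes the `p`-element `z`
-/

set_option autoImplicit false

namespace Cfsg.Agent.Lib.Helper13.CEJPP

open Cfsg.Agent.Lib.Helper88.CEStmt

universe u

theorem main : JPP.{u} := by
  intro G _ p n m _ hm α hα z hz hcomm hfix
  obtain ⟨w, hw⟩ : ∃ w : G, w = z * (α z)⁻¹ := ⟨_, rfl⟩
  rw [← hw] at hfix
  have hαz : α z = w⁻¹ * z := by rw [hw]; group
  have hpow : ∀ j : ℕ, (α ^ j) z = (w ^ j)⁻¹ * z := by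
    intro j
    induction j with
    | zero => simp
    | succ j ih =>
      rw [pow_succ', MulAut.mul_apply, ih, map_mul, map_inv, map_pow, hfix, hαz, pow_succ]
      group
  have hwm : w ^ m = 1 := by
    have h1 := hpow m
    rw [hα, MulAut.one_apply] at h1
    have h2 : (w ^ m)⁻¹ = 1 := by
      have h3 : (w ^ m)⁻¹ * z = 1 * z := by rw [one_mul]; exact h1.symm
      exact mul_right_cancel h3
    exact inv_eq_one.mp h2
  have hwp : w ^ (p ^ n) = 1 := by
    have hc : Commute z (α z)⁻¹ := Commute.inv_right (show Commute z (α z) from hcomm)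
    rw [hw, hc.mul_pow, hz, one_mul, inv_pow, ← map_pow, hz, map_one, inv_one]
  have hw1 : w = 1 := by
    have h1 : orderOf w ∣ m := orderOf_dvd_of_pow_eq_one hwm
    have h2 : orderOf w ∣ p ^ n := orderOf_dvd_of_pow_eq_one hwp
    have h3 : orderOf w ∣ Nat.gcd m (p ^ n) := Nat.dvd_gcd h1 h2
    have h4 : Nat.gcd m (p ^ n) = 1 := Nat.Coprime.pow_right n hm
    rw [h4] at h3
    exact orderOf_eq_one_iff.mp (Nat.dvd_one.mp h3)
  rw [hw1] at hw
  exact (mul_inv_eq_one.mp hw.symm).symm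

end Cfsg.Agent.Lib.Helper13.CEJPP
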