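import Mathlib
import Cfsg.Agent.Lib.Helper87.FSSat
import Cfsg.Agent.Lib.Helper88.CESStmt

/-!
# S5127 (strong closure part), piece NGROW: `N_T(Y) ≤ Y` forces `T ≤ Y`
-/

set_option autoImplicit false

namespace Cfsg.Agent.Lib.Helper13.CENGROW

open Cfsg Cfsg.FusionSystem Cfsg.Agent.Lib.Helper88.CESStmt

universe u

theorem main : NormGrow.{u} := by
  intro Ω _ S _ p _ hS T Y hTS hYS hnorm hN
  classical
  by_contra hTY
  have hle : T ⊔ Y ≤ S := sup_le hTS hYS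
  have hfin : Finite ↥(T ⊔ Y) := Cfsg.Agent.Lib.Helper87.FSSat.finite_of_le hle
  have hp' : IsPGroup p ↥(T ⊔ Y) := hS.to_le hle
  have hne : Y ≠ T ⊔ Y := by
    intro h
    apply hTY
    rw [h]
    exact le_sup_left
  obtain ⟨g, hg, hgN, hgY⟩ :=
    Cfsg.Agent.Lib.Helper87.FSSat.exists_normalizer_not_mem hp' (le_sup_right : Y ≤ T ⊔ Y) hne
  have hprod : ∀ g ∈ T ⊔ Y, ∃ t ∈ T, ∃ y ∈ Y, g = t * y := by
    intro g hg
    rw [Subgroup.sup_eq_closure] at hg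
    induction hg using Subgroup.closure_induction with
    | mem g hg =>
      rcases hg with hg | hg
      · exact ⟨g, hg, 1, Y.one_mem, by simp⟩
      · exact ⟨1, T.one_mem, g, hg, by simp⟩
    | one => exact ⟨1, T.one_mem, 1, Y.one_mem, by simp⟩
    | mul a b _ _ ha hb =>
      obtain ⟨t, ht, y, hy, rfl⟩ := ha
      obtain ⟨t', ht', y', hy', rfl⟩ := hb
      refine ⟨t * (y * t' * y⁻¹), T.mul_mem ht (hnorm y (hYS hy) t' ht'), y * y',
        Y.mul_mem hy hy', ?_⟩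
      group
    | inv a _ ha =>
      obtain ⟨t, ht, y, hy, rfl⟩ := ha
      refine ⟨y⁻¹ * t⁻¹ * y⁻¹⁻¹, hnorm y⁻¹ (S.inv_mem (hYS hy)) t⁻¹ (T.inv_mem ht), y⁻¹,
        Y.inv_mem hy, ?_⟩
      group
  obtain ⟨t, ht, y, hy, rfl⟩ := hprod g hg
  have hyN : y ∈ Subgroup.normalizer (Y : Set Ω) := Subgroup.le_normalizer hy
  have htN : t ∈ Subgroup.normalizer (Y : Set Ω) := by
    have h1 : t = t * y * y⁻¹ := by group
    rw [h1]
    exact Subgroup.mul_mem _ hgN (Subgroup.inv_mem _ hyN)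
  have htY : t ∈ Y := hN (Subgroup.mem_inf.mpr ⟨ht, htN⟩)
  exact hgY (Y.mul_mem htY hy)

end Cfsg.Agent.Lib.Helper13.CENGROW
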