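import Mathlib
import Cfsg.Agent.H85.Basic
import Cfsg.Agent.Lib.Helper88.CESStmt

/-!
# S5127 (strong closure part), piece SUBC: a subgroup of a subgroup centralizing `E`
centralizes `E`
-/

set_option autoImplicit false

namespace Cfsg.Agent.Lib.Helper13.CESUBC

open Cfsg Cfsg.FusionSystem Cfsg.Agent.Lib.Helper88.FCStmt Cfsg.Agent.Lib.Helper88.CESStmt

universe u

theorem main : SubCentral.{u} := by
  intro Ω _ S F T E X Q hQX hX P φ hφ
  obtain ⟨h1, h2, h3, ψ, hψ, hψP, hψX⟩ := hX P hφ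
  have hcen : centralizerIn S X ≤ centralizerIn S Q := by
    intro y hy
    exact Subgroup.mem_inf.mpr ⟨(Subgroup.mem_inf.mp hy).1,
      Subgroup.centralizer_le (fun z hz => hQX hz) (Subgroup.mem_inf.mp hy).2⟩
  have hle : P ⊔ Q ≤ P ⊔ X := sup_le_sup_left hQX P
  refine ⟨h1, h2.trans hcen, fun x => hcen (h3 x), ψ.comp (Subgroup.inclusion hle),
    Cfsg.Agent.H85.restrict_mem F hψ hle, fun x => ?_, fun x => ?_⟩
  · exact hψP x
  · exact hψX ⟨x, hQX x.2⟩

end Cfsg.Agent.Lib.Helper13.CESUBC
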