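import Mathlib
import Cfsg.Agent.H85.Basic
import Cfsg.Agent.Lib.Helper88.CESStmt

/-!
# S5127 (strong closure part), piece YCAP: `(R' C_T(R')) ∩ T = C_T(R')` for `R' = φ(X)`,
`X ≤ C_S(T)`
-/

set_option autoImplicit false

namespace Cfsg.Agent.Lib.Helper13.CEYCAP

open Cfsg Cfsg.FusionSystem Cfsg.Agent.Lib.Helper88.CESStmt

universe u

theorem main : YCap.{u} := by
  intro Ω _ S _ F T hT X hX φ hφ y hy hyT
  classical
  have hCc : ∀ c ∈ centralizerIn T φ.range, ∀ r ∈ φ.range, r * c = c * r := by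
    intro c hc r hr
    exact Subgroup.mem_centralizer_iff.mp (Subgroup.mem_inf.mp hc).2 r hr
  have hprod : ∀ g ∈ φ.range ⊔ centralizerIn T φ.range,
      ∃ r ∈ φ.range, ∃ c ∈ centralizerIn T φ.range, g = r * c := by
    intro g hg
    rw [Subgroup.sup_eq_closure] at hg
    induction hg using Subgroup.closure_induction with
    | mem g hg =>
      rcases hg with hg | hg
      · exact ⟨g, hg, 1, Subgroup.one_mem _, by simp⟩
      · exact ⟨1, Subgroup.one_mem _, g, hg, by simp⟩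
    | one => exact ⟨1, Subgroup.one_mem _, 1, Subgroup.one_mem _, by simp⟩
    | mul a b _ _ ha hb =>
      obtain ⟨r, hr, c, hc, rfl⟩ := ha
      obtain ⟨r', hr', c', hc', rfl⟩ := hb
      refine ⟨r * r', Subgroup.mul_mem _ hr hr', c * c', Subgroup.mul_mem _ hc hc', ?_⟩
      have h1 := hCc c hc r' hr'
      calc r * c * (r' * c') = r * (c * r') * c' := by group
        _ = r * (r' * c) * c' := by rw [h1]
        _ = r * r' * (c * c') := by group
    | inv a _ ha =>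
      obtain ⟨r, hr, c, hc, rfl⟩ := ha
      refine ⟨r⁻¹, Subgroup.inv_mem _ hr, c⁻¹, Subgroup.inv_mem _ hc, ?_⟩
      have h1 := hCc c hc r hr
      rw [h1]; group
  obtain ⟨r, hr, c, hc, rfl⟩ := hprod y hy
  have hcT : c ∈ T := (Subgroup.mem_inf.mp hc).1
  have hrT : r ∈ T := by
    have h1 : r = r * c * c⁻¹ := by group
    rw [h1]
    exact T.mul_mem hyT (T.inv_mem hcT)
  obtain ⟨x, rfl⟩ := hr
  -- `x ∈ T` by strong closure applied to the inverse of `φ`
  have hxT : (x : Ω) ∈ T := by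
    obtain ⟨ψ, hψ, hψx⟩ := Cfsg.Agent.H85.inv_mem' F hφ
      (inf_le_left : φ.range ⊓ T ≤ φ.range)
    have h1 := hT.2 (φ.range ⊓ T) inf_le_right ψ hψ
      ⟨φ x, Subgroup.mem_inf.mpr ⟨⟨x, rfl⟩, hrT⟩⟩
    rw [hψx x (Subgroup.mem_inf.mpr ⟨⟨x, rfl⟩, hrT⟩)] at h1
    exact h1
  have hxc : ∀ x' : X, x * x' = x' * x := by
    intro x'
    apply Subtype.ext
    exact Subgroup.mem_centralizer_iff.mp (Subgroup.mem_inf.mp (hX x'.2)).2 (x : Ω) hxT
  have hrC : φ x ∈ centralizerIn T φ.range := by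
    refine Subgroup.mem_inf.mpr ⟨hrT, Subgroup.mem_centralizer_iff.mpr ?_⟩
    rintro _ ⟨x', rfl⟩
    rw [← map_mul, ← map_mul, hxc x']
  exact Subgroup.mul_mem _ hrC hc

end Cfsg.Agent.Lib.Helper13.CEYCAP
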