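import Mathlib
import Cfsg.Agent.Lib.Helper59.FxStmt

/-!
# S3390, piece BETA: the configuration `Cfg S α β s` exists
-/

set_option autoImplicit false

namespace Cfsg.Agent.Lib.Helper13.FxBETA

open Cfsg.Agent.Lib.Helper59.FxStmt

universe u v

theorem main : Beta.{u, v} := by
  intro G _ _ Ω _ hF S hS α hT hnle
  classical
  have : Fact (Nat.Prime 2) := ⟨Nat.prime_two⟩
  have hS' : IsPGroup 2 ↥S := hS
  have hnil : Group.IsNilpotent ↥S := hS'.isNilpotent
  have hlt : (S ⊓ MulAction.stabilizer G α).subgroupOf S < ⊤ := by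
    rw [lt_top_iff_ne_top]
    intro h
    apply hnle
    rw [Subgroup.subgroupOf_eq_top] at h
    exact h.trans inf_le_right
  have hnc := Group.normalizerCondition_of_isNilpotent (G := ↥S) _ hlt
  obtain ⟨x, hxN, hxT⟩ := SetLike.exists_of_lt hnc
  have hsS : (x : G) ∈ S := x.2
  have hconj : ∀ h : G, h ∈ S → (h ∈ S ⊓ MulAction.stabilizer G α ↔
      (x : G) * h * (x : G)⁻¹ ∈ S ⊓ MulAction.stabilizer G α) := by
    intro h hh
    have h1 := (Subgroup.mem_normalizer_iff.mp hxN) ⟨h, hh⟩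
    rw [Subgroup.mem_subgroupOf, Subgroup.mem_subgroupOf] at h1
    exact h1
  have hsT : (x : G) ∉ S ⊓ MulAction.stabilizer G α := by
    intro h; apply hxT; rw [Subgroup.mem_subgroupOf]; exact h
  have hsα : (x : G) • α ≠ α := by
    intro h
    exact hsT (Subgroup.mem_inf.mpr ⟨hsS, MulAction.mem_stabilizer_iff.mpr h⟩)
  have hinv : ∀ t ∈ S ⊓ MulAction.stabilizer G α,
      (x : G)⁻¹ * t * (x : G) ∈ S ⊓ MulAction.stabilizer G α := by
    intro t ht
    have htS : t ∈ S := (Subgroup.mem_inf.mp ht).1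
    have hh : (x : G)⁻¹ * t * (x : G) ∈ S := S.mul_mem (S.mul_mem (S.inv_mem hsS) htS) hsS
    rw [hconj _ hh]
    have h2 : (x : G) * ((x : G)⁻¹ * t * (x : G)) * (x : G)⁻¹ = t := by group
    rw [h2]; exact ht
  have hTβ : ∀ t ∈ S ⊓ MulAction.stabilizer G α, t • ((x : G) • α) = (x : G) • α := by
    intro t ht
    have h2 : ((x : G)⁻¹ * t * (x : G)) • α = α :=
      MulAction.mem_stabilizer_iff.mp (Subgroup.mem_inf.mp (hinv t ht)).2
    calc t • ((x : G) • α) = (x : G) • (((x : G)⁻¹ * t * (x : G)) • α) := by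
          simp [mul_smul]
      _ = (x : G) • α := by rw [h2]
  obtain ⟨t, htT, ht1⟩ : ∃ t ∈ S ⊓ MulAction.stabilizer G α, t ≠ 1 := by
    by_contra hcon
    push Not at hcon
    exact hT ((Subgroup.eq_bot_iff_forall _).mpr hcon)
  have htα : t • α = α := MulAction.mem_stabilizer_iff.mp (Subgroup.mem_inf.mp htT).2
  have hsβ : (x : G) • ((x : G) • α) = α := by
    have h3 : t • ((x : G) • ((x : G) • α)) = (x : G) • ((x : G) • α) := by
      have h2 := hTβ _ (hinv t htT)
      calc t • ((x : G) • ((x : G) • α))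
          = (x : G) • (((x : G)⁻¹ * t * (x : G)) • ((x : G) • α)) := by simp [mul_smul]
        _ = (x : G) • ((x : G) • α) := by rw [h2]
    rcases hF t ht1 α ((x : G) • α) ((x : G) • ((x : G) • α)) htα (hTβ t htT) h3 with h | h | h
    · exact absurd h.symm hsα
    · exact h.symm
    · exact absurd (smul_left_cancel (x : G) h).symm hsα
  refine ⟨(x : G) • α, (x : G), ⟨hF, hS, fun h => hsα h.symm, hsS, rfl, hsβ, hT, ?_⟩⟩
  ext y
  simp only [Subgroup.mem_inf, MulAction.mem_stabilizer_iff]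
  constructor
  · rintro ⟨hyS, hy⟩
    have hh : (x : G)⁻¹ * y * (x : G) ∈ S := S.mul_mem (S.mul_mem (S.inv_mem hsS) hyS) hsS
    have h1 : (x : G)⁻¹ * y * (x : G) ∈ S ⊓ MulAction.stabilizer G α := by
      refine Subgroup.mem_inf.mpr ⟨hh, MulAction.mem_stabilizer_iff.mpr ?_⟩
      rw [mul_smul, mul_smul, hy, inv_smul_smul]
    have h2 := (hconj _ hh).mp h1
    have h3 : (x : G) * ((x : G)⁻¹ * y * (x : G)) * (x : G)⁻¹ = y := by group
    rw [h3] at h2
    exact ⟨hyS, MulAction.mem_stabilizer_iff.mp (Subgroup.mem_inf.mp h2).2⟩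
  · rintro ⟨hyS, hy⟩
    exact ⟨hyS, hTβ y (Subgroup.mem_inf.mpr ⟨hyS, MulAction.mem_stabilizer_iff.mpr hy⟩)⟩

end Cfsg.Agent.Lib.Helper13.FxBETA
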