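import Mathlib
import Cfsg.Agent.Lib.Helper59.FxStmt

/-!
# S3390, piece TWO: `|T| = 2`, the involution of `T` has centralizer of order 4 in `S`
-/

set_option autoImplicit false

namespace Cfsg.Agent.Lib.Helper13.FxTWO

open Cfsg.Agent.Lib.Helper59.FxStmt

universe u v

/-- the fixed points of a nonidentity element of `T` are `α` and `β`. -/
theorem fix_of_mem {G : Type u} [Group G] {Ω : Type v} [MulAction G Ω] {S : Subgroup G}
    {α β : Ω} {s : G} (c : Cfg S α β s) {t : G}
    (ht : t ∈ S ⊓ MulAction.stabilizer G α) (ht1 : t ≠ 1) {ω : Ω} (hω : t • ω = ω) :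
    ω = α ∨ ω = β := by
  have htα : t • α = α := MulAction.mem_stabilizer_iff.mp (Subgroup.mem_inf.mp ht).2
  have htβ : t • β = β := by
    have h : t ∈ S ⊓ MulAction.stabilizer G β := by rw [c.Tβ]; exact ht
    exact MulAction.mem_stabilizer_iff.mp (Subgroup.mem_inf.mp h).2
  rcases c.f3 t ht1 α β ω htα htβ hω with h | h | h
  · exact absurd h c.ne
  · exact Or.inl h.symm
  · exact Or.inr h.symm

/-- an element of `S` permuting `{α, β}`: exactly one of `b`, `b * s` lies in `T`. -/
theorem xor_mem {G : Type u} [Group G] {Ω : Type v} [MulAction G Ω] {S : Subgroup G}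
    {α β : Ω} {s : G} (c : Cfg S α β s) {b : G} (hb : b ∈ S)
    (hα : b • α = α ∨ b • α = β) (hβ : b • β = α ∨ b • β = β) :
    Xor (b * s ∈ S ⊓ MulAction.stabilizer G α) (b ∈ S ⊓ MulAction.stabilizer G α) := by
  rcases hα with h | h
  · right
    have hbT : b ∈ S ⊓ MulAction.stabilizer G α :=
      Subgroup.mem_inf.mpr ⟨hb, MulAction.mem_stabilizer_iff.mpr h⟩
    refine ⟨hbT, ?_⟩
    intro h2
    have h3 : (b * s) • α = α := MulAction.mem_stabilizer_iff.mp (Subgroup.mem_inf.mp h2).2
    rw [mul_smul, c.sα] at h3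
    have hbβ : b ∈ S ⊓ MulAction.stabilizer G β := by rw [c.Tβ]; exact hbT
    have h4 : b • β = β := MulAction.mem_stabilizer_iff.mp (Subgroup.mem_inf.mp hbβ).2
    rw [h4] at h3
    exact c.ne h3.symm
  · left
    constructor
    · refine Subgroup.mem_inf.mpr ⟨S.mul_mem hb c.hs, MulAction.mem_stabilizer_iff.mpr ?_⟩
      rw [mul_smul, c.sα]
      rcases hβ with h2 | h2
      · exact h2
      · exfalso
        have h5 : b • β = b • α := by rw [h2, h]
        exact c.ne (smul_left_cancel b h5).symm
    · intro h2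
      have h3 : b • α = α := MulAction.mem_stabilizer_iff.mp (Subgroup.mem_inf.mp h2).2
      rw [h] at h3
      exact c.ne h3.symm

theorem main : Two.{u, v} := by
  intro G _ _ Ω _ S α β s c hcard
  classical
  obtain ⟨t, htT, ht1⟩ : ∃ t ∈ S ⊓ MulAction.stabilizer G α, t ≠ 1 := by
    by_contra hcon
    push Not at hcon
    exact c.Tne ((Subgroup.eq_bot_iff_forall _).mpr hcon)
  have huniq : ∀ t' ∈ S ⊓ MulAction.stabilizer G α, t' ≠ 1 → t' = t := by
    intro t' ht' ht'1
    obtain ⟨y, hy, hyu⟩ :=
      (Nat.card_eq_two_iff' (1 : ↥(S ⊓ MulAction.stabilizer G α))).mp hcard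
    have h1 : (⟨t', ht'⟩ : ↥(S ⊓ MulAction.stabilizer G α)) = y :=
      hyu _ (by intro h; exact ht'1 (congrArg Subtype.val h))
    have h2 : (⟨t, htT⟩ : ↥(S ⊓ MulAction.stabilizer G α)) = y :=
      hyu _ (by intro h; exact ht1 (congrArg Subtype.val h))
    exact congrArg Subtype.val (h1.trans h2.symm)
  have htS : t ∈ S := (Subgroup.mem_inf.mp htT).1
  have htα : t • α = α := MulAction.mem_stabilizer_iff.mp (Subgroup.mem_inf.mp htT).2
  have htβ : t • β = β := by
    have h : t ∈ S ⊓ MulAction.stabilizer G β := by rw [c.Tβ]; exact htT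
    exact MulAction.mem_stabilizer_iff.mp (Subgroup.mem_inf.mp h).2
  have ht2 : t ^ 2 = 1 := by
    by_contra h
    have h1 := huniq (t ^ 2) (Subgroup.pow_mem _ htT 2) h
    apply ht1
    have h2 : t * t = t * 1 := by rw [mul_one, ← pow_two]; exact h1
    exact mul_left_cancel h2
  have : Fact (Nat.Prime 2) := ⟨Nat.prime_two⟩
  refine ⟨⟨t, htS⟩, ?_, ?_⟩
  · rw [← Subgroup.orderOf_coe]
    exact orderOf_eq_prime ht2 ht1
  · have hTC : (S ⊓ MulAction.stabilizer G α).subgroupOf S ≤
        Subgroup.centralizer ({⟨t, htS⟩} : Set ↥S) := by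
      intro y hy
      rw [Subgroup.mem_subgroupOf] at hy
      rw [Subgroup.mem_centralizer_iff]
      intro h hh
      rw [Set.mem_singleton_iff] at hh
      subst hh
      apply Subtype.ext
      show t * (y : G) = (y : G) * t
      by_cases hy1 : (y : G) = 1
      · rw [hy1]; simp
      · rw [huniq _ hy hy1]
    have hidx : ((S ⊓ MulAction.stabilizer G α).subgroupOf S).relIndex
        (Subgroup.centralizer ({⟨t, htS⟩} : Set ↥S)) = 2 := by
      rw [Subgroup.relIndex_eq_two_iff]
      refine ⟨⟨s, c.hs⟩, ?_, ?_⟩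
      · rw [Subgroup.mem_centralizer_iff]
        intro h hh
        rw [Set.mem_singleton_iff] at hh
        subst hh
        apply Subtype.ext
        show t * s = s * t
        have h1 : s * t * s⁻¹ ∈ S ⊓ MulAction.stabilizer G α := by
          rw [← c.Tβ]
          refine Subgroup.mem_inf.mpr ⟨S.mul_mem (S.mul_mem c.hs htS) (S.inv_mem c.hs),
            MulAction.mem_stabilizer_iff.mpr ?_⟩
          rw [mul_smul, mul_smul]
          have h0 : s⁻¹ • β = α := by rw [← c.sα, inv_smul_smul]
          rw [h0, htα, c.sα]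
        have h2 : s * t * s⁻¹ ≠ 1 := by
          intro h; apply ht1
          have h0 : t = s⁻¹ * (s * t * s⁻¹) * s := by group
          rw [h0, h]; group
        have h3 := huniq _ h1 h2
        calc t * s = (s * t * s⁻¹) * s := by rw [h3]
          _ = s * t := by group
      · intro b hb
        have hcomm : t * (b : G) = (b : G) * t := by
          have h0 := (Subgroup.mem_centralizer_iff.mp hb) ⟨t, htS⟩ (Set.mem_singleton _)
          exact congrArg Subtype.val h0
        have hbα : (b : G) • α = α ∨ (b : G) • α = β := by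
          apply fix_of_mem c htT ht1
          rw [← mul_smul, hcomm, mul_smul, htα]
        have hbβ : (b : G) • β = α ∨ (b : G) • β = β := by
          apply fix_of_mem c htT ht1
          rw [← mul_smul, hcomm, mul_smul, htβ]
        exact xor_mem c b.2 hbα hbβ
    have h1 := Subgroup.relIndex_mul_relIndex (⊥ : Subgroup ↥S) _ _ bot_le hTC
    rw [Subgroup.relIndex_bot_left, Subgroup.relIndex_bot_left, hidx] at h1
    have h2 : Nat.card ↥((S ⊓ MulAction.stabilizer G α).subgroupOf S) = 2 := by
      rw [← hcard]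
      exact Nat.card_congr (Subgroup.subgroupOfEquivOfLe inf_le_left).toEquiv
    rw [h2] at h1
    exact h1.symm

end Cfsg.Agent.Lib.Helper13.FxTWO
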