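import Mathlib
import Cfsg.Agent.Lib.Helper59.FxStmt
import Cfsg.Agent.Lib.Helper13.FxTWO

/-!
# S3390, piece IDX: `|T| ≥ 4` forces `|S : T| = 2`
-/

set_option autoImplicit false

namespace Cfsg.Agent.Lib.Helper13.FxIDX

open Cfsg.Agent.Lib.Helper59.FxStmt
open scoped Pointwise

universe u v

theorem main : Idx.{u, v} := by
  intro G _ _ Ω _ S α β s c hcard
  classical
  have : Fact (Nat.Prime 2) := ⟨Nat.prime_two⟩
  have hmemA : ∀ ω : Ω, ω ∈ ({α, β} : Set Ω) ↔ ω = α ∨ ω = β := fun ω => by simp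
  -- every element of `S` stabilizes `{α, β}`
  have hkey : S ≤ MulAction.stabilizer G ({α, β} : Set Ω) := by
    by_contra hnle
    have hS' : IsPGroup 2 ↥S := c.p2
    have hnil : Group.IsNilpotent ↥S := hS'.isNilpotent
    have hlt : (S ⊓ MulAction.stabilizer G ({α, β} : Set Ω)).subgroupOf S < ⊤ := by
      rw [lt_top_iff_ne_top]
      intro h
      apply hnle
      rw [Subgroup.subgroupOf_eq_top] at h
      exact h.trans inf_le_right
    have hnc := Group.normalizerCondition_of_isNilpotent (G := ↥S) _ hlt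
    obtain ⟨y, hyN, hyT⟩ := SetLike.exists_of_lt hnc
    have hyS : (y : G) ∈ S := y.2
    have hconj : ∀ h : G, h ∈ S → (h ∈ S ⊓ MulAction.stabilizer G ({α, β} : Set Ω) ↔
        (y : G) * h * (y : G)⁻¹ ∈ S ⊓ MulAction.stabilizer G ({α, β} : Set Ω)) := by
      intro h hh
      have h1 := (Subgroup.mem_normalizer_iff.mp hyN) ⟨h, hh⟩
      rw [Subgroup.mem_subgroupOf, Subgroup.mem_subgroupOf] at h1
      exact h1
    have hyA : (y : G) ∉ MulAction.stabilizer G ({α, β} : Set Ω) := by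
      intro h; apply hyT; rw [Subgroup.mem_subgroupOf]; exact Subgroup.mem_inf.mpr ⟨hyS, h⟩
    have hTN : ∀ t ∈ S ⊓ MulAction.stabilizer G α,
        t ∈ S ⊓ MulAction.stabilizer G ({α, β} : Set Ω) := by
      intro t ht
      refine Subgroup.mem_inf.mpr ⟨(Subgroup.mem_inf.mp ht).1, ?_⟩
      have htα : t • α = α := MulAction.mem_stabilizer_iff.mp (Subgroup.mem_inf.mp ht).2
      have htβ : t • β = β := by
        have h : t ∈ S ⊓ MulAction.stabilizer G β := by rw [c.Tβ]; exact ht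
        exact MulAction.mem_stabilizer_iff.mp (Subgroup.mem_inf.mp h).2
      rw [MulAction.mem_stabilizer_set]
      intro ω
      rw [hmemA, hmemA]
      constructor
      · rintro (h | h)
        · left; exact smul_left_cancel t (h.trans htα.symm)
        · right; exact smul_left_cancel t (h.trans htβ.symm)
      · rintro (h | h)
        · left; rw [h, htα]
        · right; rw [h, htβ]
    have hNT : ∀ a ∈ S ⊓ MulAction.stabilizer G ({α, β} : Set Ω),
        a ∉ S ⊓ MulAction.stabilizer G α → a • α = β := by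
      intro a ha haT
      have h1 : a • α ∈ ({α, β} : Set Ω) :=
        (MulAction.mem_stabilizer_set.mp (Subgroup.mem_inf.mp ha).2 α).mpr
          ((hmemA α).mpr (Or.inl rfl))
      rcases (hmemA _).mp h1 with h | h
      · exact absurd (Subgroup.mem_inf.mpr ⟨(Subgroup.mem_inf.mp ha).1,
          MulAction.mem_stabilizer_iff.mpr h⟩) haT
      · exact h
    have : Fintype ↥(S ⊓ MulAction.stabilizer G α) := Fintype.ofFinite _
    have h3 : 2 < Fintype.card ↥(S ⊓ MulAction.stabilizer G α) := by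
      rw [← Nat.card_eq_fintype_card]; omega
    obtain ⟨a, b, d, hab, had, hbd⟩ := Fintype.two_lt_card_iff.mp h3
    have hex : ∃ t ∈ S ⊓ MulAction.stabilizer G α, t ≠ 1 ∧
        (y : G) * t * (y : G)⁻¹ ∈ S ⊓ MulAction.stabilizer G α := by
      have ht₁T : ((a⁻¹ * b : ↥(S ⊓ MulAction.stabilizer G α)) : G) ∈
          S ⊓ MulAction.stabilizer G α := (a⁻¹ * b).2
      have ht₂T : ((a⁻¹ * d : ↥(S ⊓ MulAction.stabilizer G α)) : G) ∈
          S ⊓ MulAction.stabilizer G α := (a⁻¹ * d).2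
      have ht₁1 : ((a⁻¹ * b : ↥(S ⊓ MulAction.stabilizer G α)) : G) ≠ 1 := by
        intro h
        apply hab
        have h0 : a⁻¹ * b = 1 := Subtype.ext h
        exact inv_mul_eq_one.mp h0
      have ht₂1 : ((a⁻¹ * d : ↥(S ⊓ MulAction.stabilizer G α)) : G) ≠ 1 := by
        intro h
        apply had
        have h0 : a⁻¹ * d = 1 := Subtype.ext h
        exact inv_mul_eq_one.mp h0
      have ht12 : ((a⁻¹ * b : ↥(S ⊓ MulAction.stabilizer G α)) : G)⁻¹ *
          ((a⁻¹ * d : ↥(S ⊓ MulAction.stabilizer G α)) : G) ≠ 1 := by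
        intro h
        apply hbd
        have h' : ((a⁻¹ * b : ↥(S ⊓ MulAction.stabilizer G α)) : G) =
            ((a⁻¹ * d : ↥(S ⊓ MulAction.stabilizer G α)) : G) := inv_mul_eq_one.mp h
        have h0 : a⁻¹ * b = a⁻¹ * d := Subtype.ext h'
        exact mul_left_cancel h0
      generalize ((a⁻¹ * b : ↥(S ⊓ MulAction.stabilizer G α)) : G) = t₁ at ht₁T ht₁1 ht12
      generalize ((a⁻¹ * d : ↥(S ⊓ MulAction.stabilizer G α)) : G) = t₂ at ht₂T ht₂1 ht12
      by_cases h1 : (y : G) * t₁ * (y : G)⁻¹ ∈ S ⊓ MulAction.stabilizer G α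
      · exact ⟨t₁, ht₁T, ht₁1, h1⟩
      by_cases h2 : (y : G) * t₂ * (y : G)⁻¹ ∈ S ⊓ MulAction.stabilizer G α
      · exact ⟨t₂, ht₂T, ht₂1, h2⟩
      refine ⟨t₁⁻¹ * t₂, Subgroup.mul_mem _ (Subgroup.inv_mem _ ht₁T) ht₂T, ht12, ?_⟩
      have hN1 : (y : G) * t₁ * (y : G)⁻¹ ∈ S ⊓ MulAction.stabilizer G ({α, β} : Set Ω) :=
        (hconj _ (Subgroup.mem_inf.mp ht₁T).1).mp (hTN _ ht₁T)
      have hN2 : (y : G) * t₂ * (y : G)⁻¹ ∈ S ⊓ MulAction.stabilizer G ({α, β} : Set Ω) :=
        (hconj _ (Subgroup.mem_inf.mp ht₂T).1).mp (hTN _ ht₂T)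
      have e1 := hNT _ hN1 h1
      have e2 := hNT _ hN2 h2
      have e3 : (y : G) * (t₁⁻¹ * t₂) * (y : G)⁻¹ =
          ((y : G) * t₁ * (y : G)⁻¹)⁻¹ * ((y : G) * t₂ * (y : G)⁻¹) := by group
      rw [e3]
      refine Subgroup.mem_inf.mpr ⟨Subgroup.mul_mem _
        (Subgroup.inv_mem _ (Subgroup.mem_inf.mp hN1).1) (Subgroup.mem_inf.mp hN2).1,
        MulAction.mem_stabilizer_iff.mpr ?_⟩
      rw [mul_smul, e2, ← e1, inv_smul_smul]
    obtain ⟨t, htT, ht1, htc⟩ := hex
    have ht'1 : (y : G) * t * (y : G)⁻¹ ≠ 1 := by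
      intro h; apply ht1
      have h0 : t = (y : G)⁻¹ * ((y : G) * t * (y : G)⁻¹) * (y : G) := by group
      rw [h0, h]; group
    have htα : t • α = α := MulAction.mem_stabilizer_iff.mp (Subgroup.mem_inf.mp htT).2
    have htβ : t • β = β := by
      have h : t ∈ S ⊓ MulAction.stabilizer G β := by rw [c.Tβ]; exact htT
      exact MulAction.mem_stabilizer_iff.mp (Subgroup.mem_inf.mp h).2
    have hyα : (y : G) • α = α ∨ (y : G) • α = β := by
      apply FxTWO.fix_of_mem c htc ht'1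
      rw [mul_smul, mul_smul, inv_smul_smul, htα]
    have hyβ : (y : G) • β = α ∨ (y : G) • β = β := by
      apply FxTWO.fix_of_mem c htc ht'1
      rw [mul_smul, mul_smul, inv_smul_smul, htβ]
    apply hyA
    rw [MulAction.mem_stabilizer_set]
    intro ω
    rw [hmemA, hmemA]
    have hne : (y : G) • α ≠ (y : G) • β := fun h => c.ne (smul_left_cancel _ h)
    constructor
    · intro h
      rcases h with h | h
      · rcases hyα with h1 | h1
        · left; exact smul_left_cancel (y : G) (h.trans h1.symm)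
        · rcases hyβ with h2 | h2
          · right; exact smul_left_cancel (y : G) (h.trans h2.symm)
          · exact absurd (h1.trans h2.symm) hne
      · rcases hyβ with h2 | h2
        · rcases hyα with h1 | h1
          · exact absurd (h1.trans h2.symm) hne
          · left; exact smul_left_cancel (y : G) (h.trans h1.symm)
        · right; exact smul_left_cancel (y : G) (h.trans h2.symm)
    · rintro (h | h)
      · rw [h]; exact hyα
      · rw [h]; exact hyβ
  rw [Subgroup.relIndex_eq_two_iff]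
  refine ⟨s, c.hs, fun b hb => ?_⟩
  have hbA := hkey hb
  rw [MulAction.mem_stabilizer_set] at hbA
  have hbα : b • α = α ∨ b • α = β :=
    (hmemA _).mp ((hbA α).mpr ((hmemA α).mpr (Or.inl rfl)))
  have hbβ : b • β = α ∨ b • β = β :=
    (hmemA _).mp ((hbA β).mpr ((hmemA β).mpr (Or.inr rfl)))
  exact FxTWO.xor_mem c hb hbα hbβ

end Cfsg.Agent.Lib.Helper13.FxIDX
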