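import Mathlib
import Cfsg.Agent.Lib.Helper60.HJStmt

/-!
# S3313 piece INV1: two non-conjugate involutions, the unique involution in `⟨x * y⟩`
-/

set_option autoImplicit false

namespace Cfsg.Agent.Lib.Helper13.HJINV1

open Cfsg.Agent.Lib.Helper60.HJStmt

universe u

theorem sq_of_order_two {G : Type u} [Group G] (x : G) (hx : orderOf x = 2) : x * x = 1 := by
  have h := pow_orderOf_eq_one x
  rw [hx, pow_two] at h
  exact h

theorem main : Inv1.{u} := by
  intro G _ _ x y hx hy hxy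
  have hx2 : x * x = 1 := sq_of_order_two x hx
  have hy2 : y * y = 1 := sq_of_order_two y hy
  have hxi : x⁻¹ = x := inv_eq_of_mul_eq_one_left hx2
  have hyi : y⁻¹ = y := inv_eq_of_mul_eq_one_left hy2
  have hm : 0 < orderOf (x * y) := orderOf_pos (x * y)
  have hinv : x * (x * y) * x⁻¹ = (x * y)⁻¹ := by
    rw [mul_inv_rev, hxi, hyi, ← mul_assoc, hx2, one_mul]
  have hinvpow : ∀ j : ℕ, x * (x * y) ^ j * x⁻¹ = ((x * y) ^ j)⁻¹ := by
    intro j
    rw [← conj_pow, hinv, inv_pow]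
  have heven : Even (orderOf (x * y)) := by
    by_contra hodd
    rw [Nat.not_even_iff_odd] at hodd
    obtain ⟨j, hj⟩ := hodd
    apply hxy
    refine isConj_iff.mpr ⟨(x * y) ^ j, ?_⟩
    have h1 : ((x * y) ^ j)⁻¹ = x * (x * y) ^ j * x⁻¹ := (hinvpow j).symm
    have h2 : (x * y) ^ (2 * j + 1) = 1 := by rw [← hj]; exact pow_orderOf_eq_one _
    have h3 : (x * y) ^ j * (x * y) ^ j = (x * y)⁻¹ := by
      rw [← pow_add, ← two_mul]
      have : (x * y) ^ (2 * j) * (x * y) = 1 := by rw [← pow_succ]; exact h2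
      exact eq_inv_of_mul_eq_one_left this
    calc (x * y) ^ j * x * ((x * y) ^ j)⁻¹
        = (x * y) ^ j * x * (x * (x * y) ^ j * x⁻¹) := by rw [h1]
      _ = (x * y) ^ j * (x * x) * (x * y) ^ j * x⁻¹ := by group
      _ = ((x * y) ^ j * (x * y) ^ j) * x⁻¹ := by rw [hx2, mul_one]
      _ = (x * y)⁻¹ * x⁻¹ := by rw [h3]
      _ = y := by rw [mul_inv_rev, hxi, hyi, mul_assoc, hx2, mul_one]
  obtain ⟨k, hk⟩ := heven
  have hk' : orderOf (x * y) = 2 * k := by rw [hk, two_mul]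
  have hkpos : 0 < k := by omega
  have hw : orderOf ((x * y) ^ k) = 2 := by
    rw [orderOf_pow' _ hkpos.ne', hk', Nat.gcd_mul_left_left, Nat.mul_div_cancel _ hkpos]
  refine ⟨(x * y) ^ k, hw, ⟨k, rfl⟩, ?_⟩
  rintro v hv ⟨n, rfl⟩
  have hv2 : (x * y) ^ n * (x * y) ^ n = 1 := sq_of_order_two _ hv
  rw [← pow_add] at hv2
  have hdvd : orderOf (x * y) ∣ n + n := orderOf_dvd_of_pow_eq_one hv2
  rw [hk', ← two_mul] at hdvd
  have hkn : k ∣ n := (Nat.mul_dvd_mul_iff_left (by norm_num)).mp hdvd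
  obtain ⟨j, rfl⟩ := hkn
  rw [pow_mul]
  have hw2 : (x * y) ^ k * (x * y) ^ k = 1 := sq_of_order_two _ hw
  rcases Nat.even_or_odd j with ⟨i, hi⟩ | ⟨i, hi⟩
  · exfalso
    have : ((x * y) ^ k) ^ j = 1 := by
      rw [hi, ← two_mul, pow_mul, pow_two, hw2, one_pow]
    rw [pow_mul, this, orderOf_one] at hv
    omega
  · rw [hi, pow_succ, pow_mul, pow_two, hw2, one_pow, one_mul]

end Cfsg.Agent.Lib.Helper13.HJINV1
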