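import Mathlib
import Cfsg.Agent.Lib.Helper60.HJStmt

/-!
# S3313 piece ORDF: the Thompson order formula for two classes of involutions
-/

set_option autoImplicit false

namespace Cfsg.Agent.Lib.Helper13.HJORDF

open Cfsg.Agent.Lib.Helper60.HJStmt

universe u

/-- Size of a conjugacy class. -/
theorem class_card {G : Type u} [Group G] [Fintype G] (z : G)
    [DecidablePred fun x : G => IsConj x z] :
    (Finset.univ.filter (fun x : G => IsConj x z)).card *
      Nat.card (Subgroup.centralizer ({z} : Set G)) = Nat.card G := by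
  classical
  rw [Subgroup.nat_card_centralizer_nat_card_stabilizer]
  have h1 : Nat.card (MulAction.orbit (ConjAct G) z) =
      (Finset.univ.filter (fun x : G => IsConj x z)).card := by
    rw [← Fintype.card_subtype, ← Nat.card_eq_fintype_card]
    exact Nat.card_congr (Equiv.subtypeEquivRight (fun x => ConjAct.mem_orbit_conjAct))
  rw [← h1, ← Nat.card_prod]
  exact Nat.card_congr (MulAction.orbitProdStabilizerEquivGroup (ConjAct G) z)

theorem order_conj {G : Type u} [Group G] {x z : G} (h : IsConj x z) : orderOf x = orderOf z := by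
  obtain ⟨c, hc⟩ := isConj_iff.mp h
  rw [← hc]
  have : c * x * c⁻¹ = MulAut.conj c x := by rw [MulAut.conj_apply]
  rw [this, MulEquiv.orderOf_eq]

theorem conj_conj {G : Type u} [Group G] (g a : G) : IsConj (g * a * g⁻¹) a :=
  isConj_iff.mpr ⟨g⁻¹, by group⟩

theorem main : OrdF.{u} := by
  intro hInv G _ _ z t hz ht hzt hcl
  classical
  have : Fintype G := Fintype.ofFinite G
  -- the fibres
  set F : G → Finset (G × G) := fun w =>
    Finset.univ.filter (fun p : G × G => IsConj p.1 z ∧ IsConj p.2 t ∧ ∃ n : ℕ, (p.1 * p.2) ^ n = w)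
    with hF
  have hFcard : ∀ w : G, Nat.card {p : G × G // IsConj p.1 z ∧ IsConj p.2 t ∧
      ∃ n : ℕ, (p.1 * p.2) ^ n = w} = (F w).card := by
    intro w
    rw [Nat.card_eq_fintype_card, Fintype.card_subtype]
  rw [hFcard z, hFcard t]
  set X : Finset G := Finset.univ.filter (fun x : G => IsConj x z) with hX
  set Y : Finset G := Finset.univ.filter (fun y : G => IsConj y t) with hY
  have hXc : X.card * Nat.card (Subgroup.centralizer ({z} : Set G)) = Nat.card G := class_card z
  have hYc : Y.card * Nat.card (Subgroup.centralizer ({t} : Set G)) = Nat.card G := class_card t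
  -- conjugation invariance
  have hFconj : ∀ w g : G, (F (g * w * g⁻¹)).card = (F w).card := by
    intro w g
    symm
    refine Finset.card_nbij' (fun p => (g * p.1 * g⁻¹, g * p.2 * g⁻¹))
      (fun p => (g⁻¹ * p.1 * g, g⁻¹ * p.2 * g)) ?_ ?_ ?_ ?_
    · intro p hp
      simp only [hF, Finset.coe_filter, Finset.mem_univ, true_and] at hp ⊢
      obtain ⟨h1, h2, n, hn⟩ := hp
      refine ⟨(conj_conj g p.1).trans h1, (conj_conj g p.2).trans h2, n, ?_⟩
      have : g * p.1 * g⁻¹ * (g * p.2 * g⁻¹) = g * (p.1 * p.2) * g⁻¹ := by group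
      rw [this, conj_pow, hn]
    · intro p hp
      simp only [hF, Finset.coe_filter, Finset.mem_univ, true_and] at hp ⊢
      obtain ⟨h1, h2, n, hn⟩ := hp
      have e1 : IsConj (g⁻¹ * p.1 * g) p.1 := by
        have := conj_conj g⁻¹ p.1
        rwa [inv_inv] at this
      have e2 : IsConj (g⁻¹ * p.2 * g) p.2 := by
        have := conj_conj g⁻¹ p.2
        rwa [inv_inv] at this
      refine ⟨e1.trans h1, e2.trans h2, n, ?_⟩
      have : g⁻¹ * p.1 * g * (g⁻¹ * p.2 * g) = g⁻¹ * (p.1 * p.2) * g⁻¹⁻¹ := by group
      rw [this, conj_pow, hn]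
      group
    · intro p _
      ext <;> simp only <;> group
    · intro p _
      ext <;> simp only <;> group
  have hFX : ∀ w ∈ X, (F w).card = (F z).card := by
    intro w hw
    simp only [hX, Finset.mem_filter, Finset.mem_univ, true_and] at hw
    obtain ⟨c, hc⟩ := isConj_iff.mp hw
    rw [← hc, hFconj]
  have hFY : ∀ w ∈ Y, (F w).card = (F t).card := by
    intro w hw
    simp only [hY, Finset.mem_filter, Finset.mem_univ, true_and] at hw
    obtain ⟨c, hc⟩ := isConj_iff.mp hw
    rw [← hc, hFconj]
  have hdisj : Disjoint X Y := by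
    rw [Finset.disjoint_left]
    intro w hwX hwY
    simp only [hX, hY, Finset.mem_filter, Finset.mem_univ, true_and] at hwX hwY
    exact hzt (hwX.symm.trans hwY)
  -- double counting
  have key : X.card * Y.card = X.card * (F z).card + Y.card * (F t).card := by
    have hbip := Finset.sum_card_bipartiteAbove_eq_sum_card_bipartiteBelow
      (s := X ×ˢ Y) (t := X ∪ Y) (fun (p : G × G) (w : G) => ∃ n : ℕ, (p.1 * p.2) ^ n = w)
    have hL : ∀ p ∈ X ×ˢ Y, ((X ∪ Y).bipartiteAbove
        (fun (p : G × G) (w : G) => ∃ n : ℕ, (p.1 * p.2) ^ n = w) p).card = 1 := by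
      intro p hp
      simp only [hX, hY, Finset.mem_product, Finset.mem_filter, Finset.mem_univ, true_and] at hp
      obtain ⟨h1, h2⟩ := hp
      have ho1 : orderOf p.1 = 2 := (order_conj h1).trans hz
      have ho2 : orderOf p.2 = 2 := (order_conj h2).trans ht
      have hnc : ¬ IsConj p.1 p.2 := fun h => hzt ((h1.symm.trans h).trans h2)
      obtain ⟨w, hw, hwp, huniq⟩ := hInv G p.1 p.2 ho1 ho2 hnc
      rw [Finset.card_eq_one]
      refine ⟨w, ?_⟩
      ext v
      simp only [Finset.bipartiteAbove, Finset.mem_filter, Finset.mem_union, Finset.mem_singleton,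
        hX, hY, Finset.mem_univ, true_and]
      constructor
      · rintro ⟨hv, hvp⟩
        have hvo : orderOf v = 2 := by
          rcases hv with hv | hv
          · exact (order_conj hv).trans hz
          · exact (order_conj hv).trans ht
        exact huniq v hvo hvp
      · rintro rfl
        exact ⟨hcl v hw, hwp⟩
    have hR : ∀ w ∈ X ∪ Y, ((X ×ˢ Y).bipartiteBelow
        (fun (p : G × G) (w : G) => ∃ n : ℕ, (p.1 * p.2) ^ n = w) w).card = (F w).card := by
      intro w _
      congr 1
      ext p
      simp only [Finset.bipartiteBelow, Finset.mem_filter, Finset.mem_product, hX, hY, hF,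
        Finset.mem_univ, true_and, and_assoc]
    rw [Finset.sum_congr rfl hL, Finset.sum_congr rfl hR, Finset.sum_union hdisj,
      Finset.sum_congr rfl hFX, Finset.sum_congr rfl hFY] at hbip
    simp only [Finset.sum_const, smul_eq_mul, mul_one, Finset.card_product] at hbip
    exact hbip
  have hN : 0 < Nat.card G := Nat.card_pos
  apply Nat.eq_of_mul_eq_mul_left hN
  calc Nat.card G * Nat.card G
      = (X.card * Nat.card (Subgroup.centralizer ({z} : Set G))) *
          (Y.card * Nat.card (Subgroup.centralizer ({t} : Set G))) := by rw [hXc, hYc]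
    _ = (X.card * Y.card) * (Nat.card (Subgroup.centralizer ({z} : Set G)) *
          Nat.card (Subgroup.centralizer ({t} : Set G))) := by ring
    _ = (X.card * (F z).card + Y.card * (F t).card) *
          (Nat.card (Subgroup.centralizer ({z} : Set G)) *
          Nat.card (Subgroup.centralizer ({t} : Set G))) := by rw [key]
    _ = (X.card * Nat.card (Subgroup.centralizer ({z} : Set G))) *
          (Nat.card (Subgroup.centralizer ({t} : Set G)) * (F z).card) +
        (Y.card * Nat.card (Subgroup.centralizer ({t} : Set G))) *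
          (Nat.card (Subgroup.centralizer ({z} : Set G)) * (F t).card) := by ring
    _ = Nat.card G * (Nat.card (Subgroup.centralizer ({t} : Set G)) * (F z).card +
          Nat.card (Subgroup.centralizer ({z} : Set G)) * (F t).card) := by
        rw [hXc, hYc]; ring

end Cfsg.Agent.Lib.Helper13.HJORDF
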