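import Mathlib
import Cfsg.Agent.Lib.Helper88.MCStmt
import Cfsg.Agent.Lib.Helper67.ClassSize
import Cfsg.Agent.S4037

/-!
# S4245 / EVENB (call by helper88): `B ⊴ A` cyclic of even order, `A.index = p ^ s`: the normal
closure of the involution of `B` is a nontrivial solvable normal subgroup (Kazarin, landed S4037).
-/

set_option autoImplicit false

universe u

namespace Cfsg.Agent.Lib.Helper13.MCEVENB

open Cfsg.Agent.Lib.Helper88.MCStmt

/-- a finite cyclic group has at most one element of order `2` -/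
theorem unique_inv {C : Type u} [Group C] [Finite C] [IsCyclic C] (z w : C)
    (hz : orderOf z = 2) (hw : orderOf w = 2) : w = z := by
  classical
  have := Fintype.ofFinite C
  have hd : 2 ∣ Fintype.card C := by
    rw [← hz]
    exact orderOf_dvd_card
  have h := IsCyclic.card_orderOf_eq_totient (α := C) hd
  rw [Nat.totient_two] at h
  obtain ⟨a, ha⟩ := Finset.card_eq_one.mp h
  have hz' : z ∈ ({a} : Finset C) := by
    rw [← ha]
    exact Finset.mem_filter.mpr ⟨Finset.mem_univ _, hz⟩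
  have hw' : w ∈ ({a} : Finset C) := by
    rw [← ha]
    exact Finset.mem_filter.mpr ⟨Finset.mem_univ _, hw⟩
  rw [Finset.mem_singleton.mp hz', Finset.mem_singleton.mp hw']

theorem main : EvenB.{u} := by
  intro G _ _ A p s hp hAi B hBn hBc hBe
  have : Fact (Nat.Prime 2) := ⟨Nat.prime_two⟩
  obtain ⟨z, hz⟩ := exists_prime_orderOf_dvd_card' (G := ↥B) 2 hBe.two_dvd
  have hcent : ∀ a : ↥A, a * (z : ↥A) * a⁻¹ = (z : ↥A) := by
    intro a
    have hmem : a * (z : ↥A) * a⁻¹ ∈ B := hBn.conj_mem _ z.2 a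
    have hord : orderOf (⟨a * (z : ↥A) * a⁻¹, hmem⟩ : ↥B) = 2 := by
      rw [Subgroup.orderOf_mk]
      have h := orderOf_injective (MulAut.conj a).toMonoidHom (MulAut.conj a).injective (z : ↥A)
      have h2 : (MulAut.conj a).toMonoidHom (z : ↥A) = a * (z : ↥A) * a⁻¹ := rfl
      rw [h2] at h
      rw [h, Subgroup.orderOf_coe, hz]
    have h3 := unique_inv z ⟨_, hmem⟩ hz hord
    exact congrArg Subtype.val h3
  obtain ⟨z₀, hz₀⟩ : ∃ z₀ : G, z₀ = ((z : ↥A) : G) := ⟨_, rfl⟩
  have hz₀ord : orderOf z₀ = 2 := by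
    rw [hz₀, Subgroup.orderOf_coe, Subgroup.orderOf_coe, hz]
  have hz₀1 : z₀ ≠ 1 := by
    intro h
    rw [h, orderOf_one] at hz₀ord
    omega
  have hle : A ≤ Subgroup.centralizer ({z₀} : Set G) := by
    intro a ha
    rw [Subgroup.mem_centralizer_iff]
    intro h hh
    rw [Set.mem_singleton_iff] at hh
    rw [hh]
    have h1 := hcent ⟨a, ha⟩
    have h2 : a * z₀ * a⁻¹ = z₀ := by
      rw [hz₀]
      exact congrArg Subtype.val h1
    calc z₀ * a = (a * z₀ * a⁻¹) * a := by rw [h2]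
      _ = a * z₀ := by group
  have hdvd : (Subgroup.centralizer ({z₀} : Set G)).index ∣ p ^ s := by
    rw [← hAi]
    exact Subgroup.index_dvd_of_le hle
  obtain ⟨j, _, hj⟩ := (Nat.dvd_prime_pow hp).mp hdvd
  have hx : (ConjClasses.mk z₀).carrier.ncard = p ^ j := by
    rw [Cfsg.Agent.Lib.Helper67.ClassSize.ncard_carrier_eq_index, hj]
  refine ⟨Subgroup.normalClosure ({z₀} : Set G), Subgroup.normalClosure_normal, ?_,
    Cfsg.Agent.S4037.result z₀ hp j hx⟩
  intro hbot
  have hmem : z₀ ∈ Subgroup.normalClosure ({z₀} : Set G) :=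
    Subgroup.subset_normalClosure (Set.mem_singleton z₀)
  rw [hbot, Subgroup.mem_bot] at hmem
  exact hz₀1 hmem

end Cfsg.Agent.Lib.Helper13.MCEVENB
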