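import Mathlib
import Cfsg.Agent.Lib.Helper38.Sp4Stmt

/-!
# S5320, piece GKER: the kernel of `pr ∘ Ψ` is `{(1,1), (-1,-1)}`
-/

set_option autoImplicit false

namespace Cfsg.Agent.Lib.Helper13.Sp4GKER

open Matrix Cfsg.Agent.Lib.Helper38.Sp4Stmt Cfsg.Agent.Lib.Helper42.SL2Odd

universe u

theorem psiMat_apply_ll {F : Type u} [Field F] (a b : Matrix (Fin 2) (Fin 2) F) (i j : Fin 2) :
    PsiMat a b (Sum.inl i) (Sum.inl j) = Matrix.diagonal ![a 0 0, b 0 0] i j := rfl

theorem psiMat_apply_lr {F : Type u} [Field F] (a b : Matrix (Fin 2) (Fin 2) F) (i j : Fin 2) :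
    PsiMat a b (Sum.inl i) (Sum.inr j) = Matrix.diagonal ![a 0 1, b 0 1] i j := rfl

theorem psiMat_apply_rl {F : Type u} [Field F] (a b : Matrix (Fin 2) (Fin 2) F) (i j : Fin 2) :
    PsiMat a b (Sum.inr i) (Sum.inl j) = Matrix.diagonal ![a 1 0, b 1 0] i j := rfl

theorem psiMat_apply_rr {F : Type u} [Field F] (a b : Matrix (Fin 2) (Fin 2) F) (i j : Fin 2) :
    PsiMat a b (Sum.inr i) (Sum.inr j) = Matrix.diagonal ![a 1 1, b 1 1] i j := rfl

/-- `PsiMat (c • 1) (c • 1) = c • 1` -/
theorem psiMat_smul_one {F : Type u} [Field F] (c : F) :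
    PsiMat (c • (1 : Matrix (Fin 2) (Fin 2) F)) (c • (1 : Matrix (Fin 2) (Fin 2) F)) =
      c • (1 : Matrix (Fin 2 ⊕ Fin 2) (Fin 2 ⊕ Fin 2) F) := by
  ext i j
  rcases i with i | i <;> rcases j with j | j <;> fin_cases i <;> fin_cases j <;>
    simp [PsiMat, Matrix.fromBlocks, Matrix.one_apply]

theorem main : GKER.{u} := by
  intro F _ Ψ hΨ h2
  constructor
  · intro a b hab
    have h1 : pr (Ψ (a, b)) = pr (1 : Matrix.symplecticGroup (Fin 2) F) := by
      rw [hab, map_one]
    obtain ⟨c, hc, hM⟩ := Cfsg.Agent.Lib.Helper43.SpBasic.exists_scalar_of_pr_eq (by norm_num) h1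
    rw [hΨ a b] at hM
    have hM' : PsiMat (a : Matrix (Fin 2) (Fin 2) F) (b : Matrix (Fin 2) (Fin 2) F) =
        c • (1 : Matrix (Fin 2 ⊕ Fin 2) (Fin 2 ⊕ Fin 2) F) := hM
    have e := fun i j => congrFun (congrFun hM' i) j
    have a00 : a 0 0 = c := by
      have := e (Sum.inl 0) (Sum.inl 0)
      rw [psiMat_apply_ll] at this
      simpa using this
    have b00 : b 0 0 = c := by
      have := e (Sum.inl 1) (Sum.inl 1)
      rw [psiMat_apply_ll] at this
      simpa using this
    have a01 : a 0 1 = 0 := by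
      have := e (Sum.inl 0) (Sum.inr 0)
      rw [psiMat_apply_lr] at this
      simpa using this
    have b01 : b 0 1 = 0 := by
      have := e (Sum.inl 1) (Sum.inr 1)
      rw [psiMat_apply_lr] at this
      simpa using this
    have a10 : a 1 0 = 0 := by
      have := e (Sum.inr 0) (Sum.inl 0)
      rw [psiMat_apply_rl] at this
      simpa using this
    have b10 : b 1 0 = 0 := by
      have := e (Sum.inr 1) (Sum.inl 1)
      rw [psiMat_apply_rl] at this
      simpa using this
    have a11 : a 1 1 = c := by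
      have := e (Sum.inr 0) (Sum.inr 0)
      rw [psiMat_apply_rr] at this
      simpa using this
    have b11 : b 1 1 = c := by
      have := e (Sum.inr 1) (Sum.inr 1)
      rw [psiMat_apply_rr] at this
      simpa using this
    have hc' : c = 1 ∨ c = -1 := by
      have : (c - 1) * (c + 1) = 0 := by linear_combination hc
      rcases mul_eq_zero.mp this with h | h
      · exact Or.inl (by linear_combination h)
      · exact Or.inr (by linear_combination h)
    rcases hc' with rfl | rfl
    · left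
      constructor
      · apply ext_entries <;> simp [a00, a01, a10, a11]
      · apply ext_entries <;> simp [b00, b01, b10, b11]
    · right
      constructor
      · apply ext_entries <;> simp [a00, a01, a10, a11, neg_entries]
      · apply ext_entries <;> simp [b00, b01, b10, b11, neg_entries]
  · have h1 : ((Ψ (-1, -1) : Matrix.symplecticGroup (Fin 2) F) :
        Matrix (Fin 2 ⊕ Fin 2) (Fin 2 ⊕ Fin 2) F) =
        (-1 : F) • ((1 : Matrix.symplecticGroup (Fin 2) F) :
          Matrix (Fin 2 ⊕ Fin 2) (Fin 2 ⊕ Fin 2) F) := by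
      rw [hΨ (-1) (-1)]
      have e1 : (((-1 : Matrix.SpecialLinearGroup (Fin 2) F)) : Matrix (Fin 2) (Fin 2) F) =
          (-1 : F) • (1 : Matrix (Fin 2) (Fin 2) F) := by
        rw [Matrix.SpecialLinearGroup.coe_neg, Matrix.SpecialLinearGroup.coe_one]
        simp
      rw [e1, psiMat_smul_one]
      rfl
    have h3 := Cfsg.Agent.Lib.Helper43.SpBasic.pr_eq_of_scalar (-1 : F) h1
    rw [map_one] at h3
    exact h3

end Cfsg.Agent.Lib.Helper13.Sp4GKER
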