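import Mathlib
import Cfsg.Agent.Lib.Helper38.Sp4Stmt
import Cfsg.Agent.Lib.Helper38.Sp4CNF
import Cfsg.Agent.Lib.Helper38.Sp4QNF

/-!
# S5320, piece QTWO: `Qst` consists of `2`-elements
-/

set_option autoImplicit false

namespace Cfsg.Agent.Lib.Helper13.Sp4QTWO

open Matrix Cfsg.Agent.Lib.Helper38.Sp4Stmt Cfsg.Agent.Lib.Helper38.Sp4CNF
  Cfsg.Agent.Lib.Helper38.Sp4QNF

universe u

theorem main : QTWO.{u} := by
  intro F _ x y h a ha
  rcases (Cfsg.Agent.Lib.Helper38.Sp4QNF.main F x y h a).mp ha with hC | hC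
  · exact ((Cfsg.Agent.Lib.Helper38.Sp4CNF.main F a).mp hC).2
  · -- `a = c * yy` with `c ∈ Cst`
    have hc := comm_of_mem_Cst hC
    refine ⟨2, ?_⟩
    have ha' : a = (a * (yy x y h)⁻¹) * yy x y h := by rw [inv_mul_cancel_right]
    have hsq : a * a = -1 := by
      have h1 : yy x y h * (a * (yy x y h)⁻¹) * (yy x y h)⁻¹ = (a * (yy x y h)⁻¹)⁻¹ :=
        yy_conj x y h hc
      have h2 : yy x y h * (a * (yy x y h)⁻¹) = (a * (yy x y h)⁻¹)⁻¹ * yy x y h := by
        rw [← h1, inv_mul_cancel_right]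
      calc a * a = (a * (yy x y h)⁻¹) * (yy x y h * (a * (yy x y h)⁻¹)) * yy x y h := by
            simp only [mul_assoc, inv_mul_cancel_left, inv_mul_cancel, mul_one]
        _ = yy x y h * yy x y h := by
            rw [h2, ← mul_assoc, mul_inv_cancel, one_mul]
        _ = -1 := yy_mul_yy x y h
    have e : a ^ (2 ^ 2) = (a * a) * (a * a) := by
      rw [show (2 ^ 2 : ℕ) = 2 + 2 from rfl, pow_add, sq]
    rw [e, hsq, neg_mul, mul_neg, one_mul, neg_neg]

end Cfsg.Agent.Lib.Helper13.Sp4QTWO
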