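import Mathlib
import Cfsg.Agent.Lib.Helper38.Sp4Stmt
import Cfsg.Agent.Lib.Helper38.Sp4CNF

/-!
# S5320, piece X0D: the data `X0Data` from `GX0` in the quaternion case
-/

set_option autoImplicit false

namespace Cfsg.Agent.Lib.Helper13.Sp4X0D

open Matrix Cfsg.Agent.Lib.Helper38.Sp4Stmt Cfsg.Agent.Lib.Helper38.Sp4CNF

universe u

/-- the diagonal map `c ↦ pr (Ψ (c, c))` -/
def dl {F : Type u} [Field F] (Ψ : Matrix.SpecialLinearGroup (Fin 2) F ×
    Matrix.SpecialLinearGroup (Fin 2) F →* Matrix.symplecticGroup (Fin 2) F) :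
    Matrix.SpecialLinearGroup (Fin 2) F →* Cfsg.PSp 2 F :=
  (pr.comp Ψ).comp ((MonoidHom.id _).prod (MonoidHom.id _))

theorem dl_apply {F : Type u} [Field F] (Ψ : Matrix.SpecialLinearGroup (Fin 2) F ×
    Matrix.SpecialLinearGroup (Fin 2) F →* Matrix.symplecticGroup (Fin 2) F)
    (c : Matrix.SpecialLinearGroup (Fin 2) F) : dl Ψ c = (pr.comp Ψ) (c, c) := rfl

theorem main : X0D.{u} := by
  intro hGX0 hGKER _ F _ Ψ t hΨ ht h2 x y h hC4
  obtain ⟨X, hX8, h1, h2', h3, h4, h5⟩ := hGX0 F Ψ t hΨ ht h2 x y h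
  obtain ⟨_, hker⟩ := hGKER F Ψ hΨ h2
  have hw0 : (w0 : Matrix.SpecialLinearGroup (Fin 2) F) ∈ Qst x y h :=
    Subgroup.subset_closure (Or.inl w0_mem_Cst)
  have hyy : yy x y h ∈ Qst x y h := Subgroup.subset_closure (Or.inr rfl)
  have hneg : dl Ψ (-1) = 1 := hker
  refine ⟨pr X, ⟨⟨3, ?_⟩, h1, h2', ?_, ⟨w0, hw0, h5⟩⟩⟩
  · rw [← map_pow]
    show pr (X ^ 8) = 1
    rw [hX8, map_one]
  · intro c hc
    have key : ∃ c' ∈ Qst x y h, pr X * dl Ψ c * (pr X)⁻¹ = dl Ψ c' := by
      induction hc using Subgroup.closure_induction with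
      | mem g hg =>
        rcases hg with hg | hg
        · rcases hC4 g hg with rfl | rfl | rfl | rfl
          · exact ⟨1, Subgroup.one_mem _, by rw [map_one, mul_one, mul_inv_cancel]⟩
          · exact ⟨1, Subgroup.one_mem _, by rw [hneg, map_one, mul_one, mul_inv_cancel]⟩
          · exact ⟨w0, hw0, h3⟩
          · refine ⟨w0, hw0, ?_⟩
            have e : dl Ψ (-w0) = dl Ψ w0 := by
              have : (-w0 : Matrix.SpecialLinearGroup (Fin 2) F) = (-1) * w0 := by
                rw [neg_mul, one_mul]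
              rw [this, map_mul, hneg, one_mul]
            rw [e]
            exact h3
        · subst hg
          exact ⟨w0 * yy x y h, Subgroup.mul_mem _ hw0 hyy, h4⟩
      | one => exact ⟨1, Subgroup.one_mem _, by rw [map_one, mul_one, mul_inv_cancel]⟩
      | mul a b _ _ iha ihb =>
        obtain ⟨a', ha', ea⟩ := iha
        obtain ⟨b', hb', eb⟩ := ihb
        refine ⟨a' * b', Subgroup.mul_mem _ ha' hb', ?_⟩
        rw [map_mul, map_mul, ← ea, ← eb]
        group
      | inv a _ iha =>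
        obtain ⟨a', ha', ea⟩ := iha
        refine ⟨a'⁻¹, Subgroup.inv_mem _ ha', ?_⟩
        rw [map_inv, map_inv, ← ea]
        group
    exact key

end Cfsg.Agent.Lib.Helper13.Sp4X0D
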