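import Mathlib
import Cfsg.Agent.Lib.Helper26.T64Stmt

/-!
# S3157, piece CXNAB: the fixed points of `x` do not all commute
-/

set_option autoImplicit false

namespace Cfsg.Agent.Lib.Helper13.T64CXNAB

open Cfsg.Agent.Lib.Helper26.T64Stmt

universe u

theorem main : CXNAB.{u} := by
  intro T _ _ ρ x hT hZ hXZ hXF hCI
  classical
  by_contra hcon
  have hcomm : ∀ c₁ c₂ : T, x c₁ = c₁ → x c₂ = c₂ → c₁ * c₂ = c₂ * c₁ := by
    intro c₁ c₂ h1 h2
    by_contra h
    exact hcon ⟨c₁, c₂, h1, h2, h⟩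
  obtain ⟨z₀, w, hz₀Z, hwZ, hz₀1, hxz₀, hxw, hfix⟩ := hXZ
  -- a fixed element is central
  have hcen : ∀ c : T, x c = c → c ∈ Subgroup.center T := by
    intro c hc
    rw [Subgroup.mem_center_iff]
    intro t
    obtain ⟨c', c'', hc', hc'', rfl⟩ := hXF t
    have h1 : c * c' = c' * c := hcomm c c' hc hc'
    have h2 : c * ρ c'' = ρ c'' * c := by
      have h3 := hCI c c''
      have h4 : c * c'' * c⁻¹ * c''⁻¹ = 1 := by
        rw [hcomm c c'' hc hc'']; group
      rw [h4, map_one, map_one] at h3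
      have h5 : c * ρ c'' = (c * ρ c'' * c⁻¹ * (ρ c'')⁻¹) * (ρ c'' * c) := by group
      rw [h5, h3, one_mul]
    calc c' * ρ c'' * c = c' * (ρ c'' * c) := by group
      _ = c' * (c * ρ c'') := by rw [h2]
      _ = (c' * c) * ρ c'' := by group
      _ = (c * c') * ρ c'' := by rw [h1]
      _ = c * (c' * ρ c'') := by group
  have hfix' : ∀ c : T, x c = c → c = 1 ∨ c = z₀ := fun c hc => hfix c (hcen c hc) hc
  -- `T` has at most four elements
  have hsurj : Function.Surjective (fun p : Bool × Bool =>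
      (if p.1 then z₀ else (1 : T)) * ρ (if p.2 then z₀ else (1 : T))) := by
    intro t
    obtain ⟨c', c'', hc', hc'', rfl⟩ := hXF t
    rcases hfix' c' hc' with h1 | h1 <;> rcases hfix' c'' hc'' with h2 | h2
    · exact ⟨(false, false), by simp [h1, h2]⟩
    · exact ⟨(false, true), by simp [h1, h2]⟩
    · exact ⟨(true, false), by simp [h1, h2]⟩
    · exact ⟨(true, true), by simp [h1, h2]⟩
  have hle := Nat.card_le_card_of_surjective _ hsurj
  rw [hT] at hle
  simp at hle

end Cfsg.Agent.Lib.Helper13.T64CXNAB
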