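import Mathlib
import Cfsg.Agent.Lib.Helper26.T64Stmt

/-!
# S3157, piece SQ: squares are central
-/

set_option autoImplicit false

namespace Cfsg.Agent.Lib.Helper13.T64SQ

open Cfsg.Agent.Lib.Helper26.T64Stmt

universe u

theorem card_cases64 : ∀ n ≤ 64, n ∣ 64 → n % 3 = 1 → n = 1 ∨ n = 4 ∨ n = 16 ∨ n = 64 := by
  decide

theorem card_cases16 : ∀ n ≤ 16, n ∣ 16 → n % 3 = 1 → n = 1 ∨ n = 4 ∨ n = 16 := by
  decide

theorem main : SQ.{u} := by
  intro T _ _ ρ hT hnc hρ hFpf hFF hL hM hZ hZE t
  classical
  by_contra ht2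
  have htZ : t ∉ Subgroup.center T := fun h => ht2 (Subgroup.mul_mem _ h h)
  have hρZ : ∀ z ∈ Subgroup.center T, ρ z ∈ Subgroup.center T := by
    intro z hz
    rw [Subgroup.mem_center_iff]
    intro s
    have h1 := (Subgroup.mem_center_iff.mp hz) (ρ⁻¹ s)
    have h2 := congrArg ρ h1
    rw [map_mul, map_mul] at h2
    have h3 : ρ (ρ⁻¹ s) = s := MulEquiv.apply_symm_apply ρ s
    rw [h3] at h2
    exact h2
  obtain ⟨X, hX⟩ : ∃ X : Set T, X = {t, ρ t} ∪ (Subgroup.center T : Set T) := ⟨_, rfl⟩
  have hXcomm : ∀ a ∈ X, ∀ b ∈ X, a * b = b * a := by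
    intro a ha b hb
    rw [hX] at ha hb
    rcases ha with ha | ha
    · rcases hb with hb | hb
      · simp only [Set.mem_insert_iff, Set.mem_singleton_iff] at ha hb
        rcases ha with ha | ha <;> rcases hb with hb | hb
        · rw [ha, hb]
        · rw [ha, hb]; exact (hFF t).2
        · rw [ha, hb]; exact ((hFF t).2).symm
        · rw [ha, hb]
      · exact Subgroup.mem_center_iff.mp hb a
    · exact (Subgroup.mem_center_iff.mp ha b).symm
  have hc1 : Subgroup.closure X ≤ Subgroup.centralizer X := by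
    rw [Subgroup.closure_le]
    intro a ha
    rw [SetLike.mem_coe, Subgroup.mem_centralizer_iff]
    intro b hb
    exact hXcomm b hb a ha
  have hc2 : Subgroup.closure X ≤ Subgroup.centralizer (Subgroup.closure X : Set T) := by
    rw [Subgroup.closure_le]
    intro a ha
    rw [SetLike.mem_coe, Subgroup.mem_centralizer_iff]
    intro b hb
    exact (Subgroup.mem_centralizer_iff.mp (hc1 hb) a ha).symm
  have hKcomm : ∀ a ∈ Subgroup.closure X, ∀ b ∈ Subgroup.closure X, a * b = b * a :=
    fun a ha b hb => Subgroup.mem_centralizer_iff.mp (hc2 hb) a ha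
  have htX : t ∈ X := by rw [hX]; exact Or.inl (by simp)
  have hρtX : ρ t ∈ X := by rw [hX]; exact Or.inl (by simp)
  have hρρ : ρ (ρ t) = (t * ρ t)⁻¹ := eq_inv_of_mul_eq_one_right (hFF t).1
  have hρK : ∀ k ∈ Subgroup.closure X, ρ k ∈ Subgroup.closure X := by
    intro k hk
    induction hk using Subgroup.closure_induction with
    | mem a ha =>
      rw [hX] at ha
      rcases ha with ha | ha
      · simp only [Set.mem_insert_iff, Set.mem_singleton_iff] at ha
        rcases ha with ha | ha
        · rw [ha]; exact Subgroup.subset_closure hρtX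
        · rw [ha, hρρ]
          exact Subgroup.inv_mem _ (Subgroup.mul_mem _ (Subgroup.subset_closure htX)
            (Subgroup.subset_closure hρtX))
      · exact Subgroup.subset_closure (by rw [hX]; exact Or.inr (hρZ a ha))
    | one => rw [map_one]; exact Subgroup.one_mem _
    | mul a b _ _ ha hb => rw [map_mul]; exact Subgroup.mul_mem _ ha hb
    | inv a _ ha => rw [map_inv]; exact Subgroup.inv_mem _ ha
  have hKdvd : Nat.card ↥(Subgroup.closure X) ∣ 64 := by
    rw [← hT]; exact Subgroup.card_subgroup_dvd_card _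
  have hKmod := hM (Subgroup.closure X) hρK
  have hZK : Subgroup.center T ≤ Subgroup.closure X :=
    fun z hz => Subgroup.subset_closure (by rw [hX]; exact Or.inr hz)
  have htK : t ∈ Subgroup.closure X := Subgroup.subset_closure htX
  have hK4 : 4 < Nat.card ↥(Subgroup.closure X) := by
    by_contra hle
    push Not at hle
    have hEq : Subgroup.center T = Subgroup.closure X :=
      Subgroup.eq_of_le_of_card_ge hZK (by rw [hZ]; exact hle)
    exact htZ (by rw [hEq]; exact htK)
  have hK : Nat.card ↥(Subgroup.closure X) = 16 := by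
    rcases card_cases64 _ (Nat.le_of_dvd (by norm_num) hKdvd) hKdvd hKmod with h | h | h | h
    · omega
    · omega
    · exact h
    · exfalso
      have htop : Subgroup.closure X = ⊤ :=
        (Subgroup.card_eq_iff_eq_top _).mp (by rw [h, hT])
      apply hnc
      refine ⟨⟨fun a b => ?_⟩⟩
      exact hKcomm a (by rw [htop]; trivial) b (by rw [htop]; trivial)
  let Sq : Subgroup T :=
    { carrier := {k | k ∈ Subgroup.closure X ∧ k * k ∈ Subgroup.center T}
      mul_mem' := by
        rintro a b ⟨ha, ha2⟩ ⟨hb, hb2⟩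
        refine ⟨Subgroup.mul_mem _ ha hb, ?_⟩
        have h : a * b * (a * b) = (a * a) * (b * b) := by
          have hab := hKcomm a ha b hb
          calc a * b * (a * b) = a * (b * a) * b := by group
            _ = a * (a * b) * b := by rw [hab]
            _ = (a * a) * (b * b) := by group
        rw [h]; exact Subgroup.mul_mem _ ha2 hb2
      one_mem' := ⟨Subgroup.one_mem _, by rw [one_mul]; exact Subgroup.one_mem _⟩
      inv_mem' := by
        rintro a ⟨ha, ha2⟩
        refine ⟨Subgroup.inv_mem _ ha, ?_⟩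
        have h : a⁻¹ * a⁻¹ = (a * a)⁻¹ := by group
        rw [h]; exact Subgroup.inv_mem _ ha2 }
  have hSqK : Sq ≤ Subgroup.closure X := fun k hk => hk.1
  have hZSq : Subgroup.center T ≤ Sq := fun z hz => ⟨hZK hz, Subgroup.mul_mem _ hz hz⟩
  have hρSq : ∀ k ∈ Sq, ρ k ∈ Sq :=
    fun k hk => ⟨hρK k hk.1, by rw [← map_mul]; exact hρZ _ hk.2⟩
  have htSq : t ∉ Sq := fun h => ht2 h.2
  have hSqdvd : Nat.card ↥Sq ∣ 16 := by rw [← hK]; exact Subgroup.card_dvd_of_le hSqK
  have hSqmod := hM Sq hρSq
  have hSq4 : Nat.card ↥Sq = 4 := by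
    rcases card_cases16 _ (Nat.le_of_dvd (by norm_num) hSqdvd) hSqdvd hSqmod with h | h | h
    · have h1 := Subgroup.card_le_of_le hZSq
      omega
    · exact h
    · exfalso
      have hEq : Sq = Subgroup.closure X :=
        Subgroup.eq_of_le_of_card_ge hSqK (by rw [h, hK])
      exact htSq (by rw [hEq]; exact htK)
  have hSqZ : Subgroup.center T = Sq :=
    Subgroup.eq_of_le_of_card_ge hZSq (by rw [hSq4, hZ])
  have hrel : (Subgroup.center T).relIndex (Subgroup.closure X) = 4 := by
    have h1 := Subgroup.relIndex_mul_relIndex (⊥ : Subgroup T) _ _ bot_le hZK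
    rw [Subgroup.relIndex_bot_left, Subgroup.relIndex_bot_left, hZ, hK] at h1
    omega
  have ht4 : t ^ 4 ∈ Subgroup.center T := by
    have h1 := Subgroup.pow_index_mem ((Subgroup.center T).subgroupOf (Subgroup.closure X))
      (⟨t, htK⟩ : ↥(Subgroup.closure X))
    rw [show ((Subgroup.center T).subgroupOf (Subgroup.closure X)).index = 4 from hrel] at h1
    rw [Subgroup.mem_subgroupOf] at h1
    simpa using h1
  apply ht2
  have h5 : t * t ∈ Sq := ⟨Subgroup.mul_mem _ htK htK, by
    have h : t * t * (t * t) = t ^ 4 := by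
      rw [show (4 : ℕ) = 2 + 2 from rfl, pow_add, pow_two]
    rw [h]; exact ht4⟩
  rw [hSqZ]; exact h5

end Cfsg.Agent.Lib.Helper13.T64SQ
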